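import Cfsg.Agent.Lib.Cov2.Basic
import Cfsg.Agent.Lib.MatConj.PrimeForm
import Cfsg.Agent.Lib.Symp.Basic
import Cfsg.Agent.Lib.Syl2EA.G2Ord
import Cfsg.Agent.S2585

/-! Coverings by two subgroups: `PSp_{2m}` and `G_2` in characteristic two. -/

set_option autoImplicit false

namespace CfsgLib.Cov2

open Polynomial Module Matrix CfsgLib.MatConj CfsgLib.Forms CfsgLib.Syl2EA Cfsg.Lie

variable {F : Type*} [Field F]

/-- The stabiliser of a function on the vectors. -/
def fstab {n : Type*} [Fintype n] [DecidableEq n] {G : Type*} [Group G] (ρ : G →* Matrix n n F)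
    (f : (n → F) → F) : Subgroup G where
  carrier := {g | ∀ v, f (ρ g *ᵥ v) = f v}
  mul_mem' {a b} ha hb v := by rw [map_mul, ← mulVec_mulVec, ha, hb]
  one_mem' v := by simp
  inv_mem' {a} ha v := by rw [← ha, rho_mulVec_inv]

theorem charP_two_of_even [Fintype F] (h : ¬ Odd (Fintype.card F)) : CharP F 2 :=
  ringChar.of_eq (FiniteField.even_card_iff_char_two.2 (Nat.even_iff.1 (Nat.not_odd_iff_even.1 h)))

theorem cov_psp_even [Fintype F] [CharP F 2] {m : ℕ} (hm : 2 ≤ m) : Cov (Cfsg.PSp m F) := by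
  have h2 : (2 : F) = 0 := CharTwo.two_eq_zero
  let S := {Q : QuadraticForm F (Fin m ⊕ Fin m → F) //
    ∀ u v, QuadraticMap.polar Q u v = spB (Fin m) F u v}
  have hS : ∀ g : symplecticGroup (Fin m) F, ∃ Q : S, ∀ v, Q.1 (g.1 *ᵥ v) = Q.1 v := fun g => by
    obtain ⟨Q, h1, h2⟩ := Cfsg.Agent.S2585.result g
    exact ⟨⟨Q, fun u v => by rw [h1, spB_eq_sympForm]⟩, h2⟩
  have : Nonempty S := ⟨(hS 1).choose⟩
  have hN : ∀ Q : S, (QuadraticMap.polarBilin Q.1).Nondegenerate := fun Q => by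
    rw [show QuadraticMap.polarBilin Q.1 = spB (Fin m) F from LinearMap.ext₂ Q.2]
    exact spB_nondegenerate _ _
  have hP : ∀ Q : S, fstab (symplecticGroup (Fin m) F).subtype Q.1 ≠ ⊤ := fun Q e => by
    have h1 : ∀ w, w ≠ 0 → Q.1 w = 1 := fun w hw => by
      obtain ⟨x, hx⟩ : ∃ x, spB (Fin m) F x w = 1 := by
        obtain ⟨x, hx⟩ : ∃ x, spB (Fin m) F x w ≠ 0 := by
          by_contra h
          push Not at h
          exact hw ((spB_nondegenerate _ _).2 w h)
        exact ⟨(spB (Fin m) F x w)⁻¹ • x, by simp [hx]⟩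
      have h3 : (⟨_, sympTransvection_mem m w 1⟩ : symplecticGroup (Fin m) F) ∈
        fstab (symplecticGroup (Fin m) F).subtype Q.1 := e ▸ Subgroup.mem_top _
      have h4 : Q.1 (Cfsg.sympTransvection m w 1 *ᵥ x) = Q.1 x := h3 x
      rw [sympTransvection_mulVec, hx, one_mul, one_smul, QuadraticMap.map_add Q.1, Q.2, hx] at h4
      linear_combination h4 - h2
    let i : Fin m := ⟨0, by omega⟩
    let j : Fin m := ⟨1, by omega⟩
    have hij : i ≠ j := by simp [i, j]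
    have h3 := h1 (Pi.single (Sum.inl i) 1 + Pi.single (Sum.inl j) 1) fun h => by
      simpa [hij] using congrFun h (Sum.inl i)
    rw [QuadraticMap.map_add Q.1, Q.2, h1 _ (by simp), h1 _ (by simp), spB_single_inl_right] at h3
    simp at h3
  obtain ⟨Q₁, Q₂, hQ⟩ := exists_two_reps fun Q : S => IsPlus Q.1
  have key : ∀ (g : symplecticGroup (Fin m) F) (Q Q' : S), (∀ v, Q.1 (g.1 *ᵥ v) = Q.1 v) →
      (IsPlus Q.1 ↔ IsPlus Q'.1) →
      ∃ x, x * g * x⁻¹ ∈ fstab (symplecticGroup (Fin m) F).subtype Q'.1 := fun g Q Q' hg h => by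
    obtain ⟨e, he⟩ := exists_equiv_of_isPlus_iff (hN Q) (hN Q') (m := m - 1)
      (by simp; omega) (by simp; omega) h
    obtain ⟨x, hx⟩ := exists_sp_of_linearMap e.toLinearMap ((spPQ_isIso _ _ _).2 fun u v => by
      rw [← Q'.2, ← Q.2]; simp [QuadraticMap.polar, ← map_add, he])
    refine ⟨x, fun v => ?_⟩
    have h1 : ∀ v, Q'.1 ((symplecticGroup (Fin m) F).subtype x *ᵥ v) = Q.1 v := fun v =>
      (congrArg Q'.1 (hx v)).trans (he v)
    rw [map_mul, map_mul, ← mulVec_mulVec, ← mulVec_mulVec, h1]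
    refine (hg _).trans ?_
    rw [← h1, rho_mulVec_inv]
  refine cov_quot _ _ _ ?_ ?_ (hP Q₁) (hP Q₂) fun g => ?_
  · rw [Symp.center_eq_bot_of_two_eq_zero h2]; exact bot_le
  · rw [Symp.center_eq_bot_of_two_eq_zero h2]; exact bot_le
  · obtain ⟨Q, hg⟩ := hS g
    rcases hQ Q with h | h
    · exact (key g Q _ hg h).imp fun _ => Or.inl
    · exact (key g Q _ hg h).imp fun _ => Or.inr

/-- The norm of the split octonions. -/
def zN (x : Fin 8 → F) : F := x 0 * x 7 - (x 1 * x 4 + x 2 * x 5 + x 3 * x 6)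

/-- The polar form of the norm. -/
def zB (x y : Fin 8 → F) : F := x 0 * y 7 + x 7 * y 0 -
  (x 1 * y 4 + x 2 * y 5 + x 3 * y 6 + x 4 * y 1 + x 5 * y 2 + x 6 * y 3)

theorem zAut_tr_norm (g : zAut F) (x : Fin 8 → F) :
    g.1 x 0 + g.1 x 7 = x 0 + x 7 ∧ zN (g.1 x) = zN x := by
  have h0 : ∀ x : Fin 8 → F, zornMul x x = (x 0 + x 7) • x - zN x • zOne F := fun x => by
    apply ext8 <;> simp [zornMul_eq, zN, zOne] <;> ring
  have h1 := g.2 x x
  rw [h0, h0, map_sub, map_smul, map_smul, zAut_one] at h1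
  by_cases h : g.1 x 0 + g.1 x 7 = x 0 + x 7
  · rw [h, sub_right_inj] at h1
    exact ⟨h, by simpa [zOne] using (congrFun h1 0).symm⟩
  · have h2 : g.1 x = ((x 0 + x 7 - (g.1 x 0 + g.1 x 7))⁻¹ * (zN x - zN (g.1 x))) • zOne F := by
      rw [mul_smul, eq_inv_smul_iff₀ (sub_ne_zero.2 (Ne.symm h)), sub_smul, sub_smul]
      linear_combination (exp := 1) h1
    have h3 : g.1 x = x := by
      generalize (x 0 + x 7 - (g.1 x 0 + g.1 x 7))⁻¹ * (zN x - zN (g.1 x)) = c at h2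
      have : x = c • zOne F := g.1.injective (by rw [h2, map_smul, zAut_one])
      rw [h2, this]
    rw [h3] at h
    exact absurd rfl h

theorem zAut_zB (g : zAut F) (x y : Fin 8 → F) : zB (g.1 x) (g.1 y) = zB x y := by
  have h : ∀ x y : Fin 8 → F, zB x y = zN (x + y) - zN x - zN y := fun x y => by
    simp [zB, zN]; ring
  rw [h, h, ← map_add, (zAut_tr_norm g _).2, (zAut_tr_norm g _).2, (zAut_tr_norm g _).2]

/-- Every automorphism fixes an element of trace one modulo scalars. -/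
theorem exists_fixed_tr_one (g : zAut F) :
    ∃ (x : Fin 8 → F) (c : F), x 0 + x 7 = 1 ∧ g.1 x = x + c • zOne F := by
  let φ : ((Fin 8 → F) × F) →ₗ[F] ((Fin 8 → F) × F) :=
    { toFun := fun p => (g.1 p.1 - p.1 - p.2 • zOne F, p.1 0 + p.1 7)
      map_add' := fun p q => Prod.ext (by simp [add_smul]; abel) (by simp; ring)
      map_smul' := fun r p => Prod.ext (by simp [smul_sub, mul_smul]) (by simp; ring) }
  by_contra h
  have h1 : ((0 : Fin 8 → F), (1 : F)) ∉ LinearMap.range φ := by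
    rintro ⟨p, hp⟩
    refine h ⟨p.1, p.2, congrArg Prod.snd hp, ?_⟩
    have : g.1 p.1 - p.1 - p.2 • zOne F = 0 := congrArg Prod.fst hp
    linear_combination (exp := 1) this
  obtain ⟨f, hf, hf'⟩ := Submodule.exists_dual_map_eq_bot_of_notMem h1 inferInstance
  have h2 : ∀ p, f (φ p) = 0 := fun p =>
    (Submodule.eq_bot_iff _).1 hf' _ (Submodule.mem_map_of_mem (LinearMap.mem_range_self φ p))
  let e : Fin 8 → F := fun i => f (Pi.single i 1, 0)
  obtain ⟨z, hz⟩ := g.1.surjective ![e 7, -e 4, -e 5, -e 6, -e 1, -e 2, -e 3, e 0]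
  have h3 : ∀ (x : Fin 8 → F) (c : F), f (x, c) = zB (g.1 z) x + c * f (0, 1) := fun x c => by
    have : (x, c) = ∑ i, x i • ((Pi.single i 1 : Fin 8 → F), (0 : F)) + c • (0, 1) := by
      refine Prod.ext (funext fun j => ?_) ?_
      · simp [Prod.fst_sum, Finset.sum_apply, Pi.single_apply]
      · simp [Prod.snd_sum]
    rw [this, map_add, map_sum, hz]
    simp only [map_smul, Fin.sum_univ_eight, smul_eq_mul]
    simp [zB, e]; ring
  generalize f (0, 1) = l at hf h3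
  have h4 : ∀ x : Fin 8 → F, zB (z - g.1 z + l • zOne F) x = 0 := fun x => by
    have h5 := h2 (x, 0)
    have h6 := zAut_zB g z x
    rw [show φ (x, 0) = (g.1 x - x - (0 : F) • zOne F, x 0 + x 7) from rfl, h3] at h5
    simp [zB, zOne] at h5 h6 ⊢
    linear_combination h5 - h6
  have h5 : z = g.1 z - l • zOne F := by
    have k := fun i => h4 (Pi.single i 1)
    have k0 := k 0; have k1 := k 1; have k2 := k 2; have k3 := k 3
    have k4 := k 4; have k5 := k 5; have k6 := k 6; have k7 := k 7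
    simp [zB, zOne, sub_eq_zero] at k0 k1 k2 k3 k4 k5 k6 k7
    apply ext8 <;> simp [zOne, k1, k2, k3, k4, k5, k6]
    · linear_combination k7
    · linear_combination k0
  have h6 := h2 (0, 1)
  rw [show φ (0, 1) = (g.1 0 - 0 - (1 : F) • zOne F, (0 : Fin 8 → F) 0 + (0 : Fin 8 → F) 7) from rfl,
    h3] at h6
  have h7 := (zAut_tr_norm g z).2
  generalize g.1 z = y at h5 h6 h7
  subst h5
  simp [zB, zN, zOne] at h6 h7
  exact hf (pow_eq_zero_iff two_ne_zero |>.1 (by linear_combination -h7 - l * h6))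

/-- long root elements -/
def zR (s t : F) : (Fin 8 → F) →ₗ[F] (Fin 8 → F) where
  toFun x := ![x 0, x 1 + s * x 2 + t * x 3, x 2, x 3, x 4, x 5 - s * x 4, x 6 - t * x 4, x 7]
  map_add' x y := by apply ext8 <;> simp <;> ring
  map_smul' r x := by apply ext8 <;> simp <;> ring

theorem zR_apply (s t : F) (x : Fin 8 → F) : zR s t x =
    ![x 0, x 1 + s * x 2 + t * x 3, x 2, x 3, x 4, x 5 - s * x 4, x 6 - t * x 4, x 7] := rfl

theorem exists_zR (s t : F) : ∃ g : zAut F, ∀ x, g.1 x = zR s t x :=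
  have h : ∀ (s t : F) x, zR s t (zR (-s) (-t) x) = x := fun s t x => by
    apply ext8 <;> simp [zR_apply] <;> ring
  ⟨⟨LinearEquiv.ofLinearMap (zR s t) (zR (-s) (-t)) (LinearMap.ext (h s t))
    (LinearMap.ext fun x => by simpa using h (-s) (-t) x), fun x y => by
      change zR s t _ = zornMul (zR s t x) (zR s t y)
      apply ext8 <;> simp [zR_apply, zornMul_eq] <;> ring⟩, fun _ => rfl⟩

/-- The standard element of trace one and norm `ν`. -/
def zY (ν : F) : Fin 8 → F := ![0, -ν, 0, 0, 1, 0, 0, 1]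

theorem mem_orbit_zY [CharP F 2] {x : Fin 8 → F} (hx : x 0 + x 7 = 1) :
    x ∈ MulAction.orbit (zAut F) (zY (zN x)) := by
  have h2 : (2 : F) = 0 := CharTwo.two_eq_zero
  let P : (Fin 8 → F) → Prop := fun x => x 0 + x 7 = 1 → x ∈ MulAction.orbit (zAut F) (zY (zN x))
  have k : ∀ (g : zAut F) x, P (g.1 x) → P x := fun g x h hx => by
    have := h ((zAut_tr_norm g x).1.trans hx)
    rw [(zAut_tr_norm g x).2] at this
    have h3 : g⁻¹ • g • x ∈ _ := MulAction.mapsTo_smul_orbit g⁻¹ _ this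
    rwa [inv_smul_smul] at h3
  obtain ⟨s, hs⟩ := exists_zS (F := F)
  have kR : ∀ (a b : F) x, P (zR a b x) → P x := fun a b x h => by
    obtain ⟨g, hg⟩ := exists_zR a b
    exact k g x (hg x ▸ h)
  have kC : ∀ (a b : F) x, P (zS (zR a b (zS x))) → P x := fun a b x h =>
    k s _ (kR a b _ (k s _ (by rw [hs, hs]; exact h)))
  have k0 : ∀ x, zN x = 0 → P x := fun x h hx => by
    rw [h, MulAction.orbit_eq_iff.2 (mem_orbit_zE.2 (by simp [ZI, zY] : ZI (zY (0 : F))))]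
    exact mem_orbit_zE.2 ⟨hx, sub_eq_zero.1 h⟩
  have k1 : ∀ x, x 0 = 0 → x 4 = 1 → x 5 = 0 → x 6 = 0 → P x := fun x e0 e4 e5 e6 => by
    by_cases e1 : x 1 = 0
    · exact k0 x (by simp [zN, *])
    refine kC (x 2 / x 1) (x 3 / x 1) _ fun hx => ?_
    convert MulAction.mem_orbit_self _
    simp [zS_apply, zR_apply, e0] at hx
    apply ext8 <;> simp [zS_apply, zR_apply, zY, zN, *]
  have k2 : ∀ x, x 0 = 0 → x 4 = 1 → P x := fun x e0 e4 =>
    kR (x 5) (x 6) _ (k1 _ e0 e4 (by simp [zR_apply, e4]) (by simp [zR_apply, e4]))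
  have k3 : ∀ x, x 0 = 0 → (x 5 ≠ 0 ∨ x 6 ≠ 0) → P x := fun x e0 e => by
    rcases e with e | e
    · exact kC ((1 - x 4) / x 5) 0 _ (k2 _ e0 (by simp [zS_apply, zR_apply, e]))
    · exact kC 0 ((1 - x 4) / x 6) _ (k2 _ e0 (by simp [zS_apply, zR_apply, e]))
  have k4 : ∀ x, x 0 = 0 → P x := fun x e0 => by
    by_cases e : x 5 ≠ 0 ∨ x 6 ≠ 0
    · exact k3 x e0 e
    push Not at e
    by_cases e4 : x 4 = 0
    · exact k0 x (by simp [zN, *])
    · exact kR 1 0 _ (k3 _ e0 (Or.inl (by simp [zR_apply, e, e4])))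
  have k5 : ∀ x, ¬ (x 4 = 0 ∧ x 5 = 0 ∧ x 6 = 0) → P x := fun x hb => by
    obtain ⟨a, b, c, e⟩ : ∃ a b c, a * x 4 + b * x 5 + c * x 6 = x 0 := by
      simp only [not_and_or] at hb
      rcases hb with hb | hb | hb
      · exact ⟨x 0 / x 4, 0, 0, by field_simp; ring⟩
      · exact ⟨0, x 0 / x 5, 0, by field_simp; ring⟩
      · exact ⟨0, 0, x 0 / x 6, by field_simp; ring⟩
    obtain ⟨g, hg⟩ := exists_zT a b c
    exact k g _ (k4 _ (by rw [hg]; exact sub_eq_zero.2 e.symm))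
  have k6 : ∀ x, ¬ (x 1 = 0 ∧ x 2 = 0 ∧ x 3 = 0) → P x := fun x hb =>
    k s _ (k5 _ (by simpa [hs, zS_apply] using hb))
  by_cases hb : x 4 = 0 ∧ x 5 = 0 ∧ x 6 = 0
  · by_cases ha : x 1 = 0 ∧ x 2 = 0 ∧ x 3 = 0
    · obtain ⟨g, hg⟩ := exists_zT (1 : F) 0 0
      refine k g _ (k6 _ fun h => ?_) hx
      have := h.1
      simp [hg, zT_apply, ha, hb] at this
      exact one_ne_zero (α := F) (by linear_combination -hx + this + x 7 * h2)
    · exact k6 x ha hx
  · exact k5 x hb hx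

theorem exists_artin_schreier_reps [Finite F] [CharP F 2] :
    ∃ a b : F, ∀ ν, (∃ d, ν + d + d ^ 2 = a) ∨ ∃ d, ν + d + d ^ 2 = b := by
  have h2 : (2 : F) = 0 := CharTwo.two_eq_zero
  let f : F →+ F := AddMonoidHom.mk' (fun d => d + d ^ 2) fun a b => by
    linear_combination a * b * h2
  have h1 : f.range.index = 2 := by
    rw [AddSubgroup.index_range, Nat.card_eq_two_iff]
    refine ⟨⟨0, by simp [f]⟩, ⟨1, by simpa [f] using CharTwo.add_self_eq_zero (1 : F)⟩, by simp,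
      Set.eq_univ_of_forall ?_⟩
    rintro ⟨d, hd⟩
    have : d * (d - 1) = 0 := by
      have : d + d ^ 2 = 0 := hd
      linear_combination this - d * h2
    simpa [sub_eq_zero] using this
  obtain ⟨b, hb⟩ := AddSubgroup.index_eq_two_iff.1 h1
  refine ⟨0, b, fun ν => ?_⟩
  rcases hb ν with ⟨⟨d, hd⟩, -⟩ | ⟨⟨d, hd⟩, -⟩
  · exact Or.inr ⟨d, by have : d + d ^ 2 = ν + b := hd; linear_combination this + ν * h2⟩
  · exact Or.inl ⟨d, by have : d + d ^ 2 = ν := hd; linear_combination this + ν * h2⟩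

theorem cov_g2 [Finite F] [CharP F 2] : Cov (G2 F) := by
  have h2 : (2 : F) = 0 := CharTwo.two_eq_zero
  let ρ : G2 F →* Matrix (Fin 8) (Fin 8) F := (Units.coeHom _).comp (G2 F).subtype
  have hρ : ∀ g : zAut F, ∃ x : G2 F, ∀ v, ρ x *ᵥ v = g.1 v := fun g =>
    ⟨⟨glOfEquiv g.1, fun x y => by
      simp only [Units.coeHom_apply, glOfEquiv_mulVec]; exact g.2 x y⟩, glOfEquiv_mulVec g.1⟩
  have hP : ∀ ν : F, stab ρ (Submodule.span F {zY ν, zOne F}) ≠ ⊤ := fun ν e => by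
    obtain ⟨g, hg⟩ := exists_zR (1 : F) 0
    obtain ⟨x, hx⟩ := hρ g
    have h1 : x ∈ stab ρ (Submodule.span F {zY ν, zOne F}) := e ▸ Subgroup.mem_top x
    obtain ⟨a, b, h3⟩ := Submodule.mem_span_pair.1 (h1 (zY ν) (Submodule.subset_span (by simp)))
    have := congrFun h3 5
    simp [hx, hg, zR_apply, zY, zOne] at this
  obtain ⟨a, b, hab⟩ := exists_artin_schreier_reps (F := F)
  refine ⟨_, _, hP a, hP b, fun g => ?_⟩
  obtain ⟨x, c, hx, hc⟩ := exists_fixed_tr_one ⟨glEquiv g.1, g.2⟩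
  have hc' : ρ g *ᵥ x = x + c • zOne F := hc
  have h1 : ρ g *ᵥ zOne F = zOne F := zAut_one ⟨glEquiv g.1, g.2⟩
  have key : ∀ ν d : F, zN x + d + d ^ 2 = ν →
      ∃ y, y * g * y⁻¹ ∈ stab ρ (Submodule.span F {zY ν, zOne F}) := fun ν d hd => by
    obtain ⟨h, hh⟩ := mem_orbit_zY (x := x + d • zOne F)
      (by simp [zOne]; linear_combination hx + d * h2)
    rw [show zN (x + d • zOne F) = ν by simp [zN, zOne] at hd ⊢; linear_combination hd + d * hx]
      at hh
    obtain ⟨y, hy⟩ := hρ h⁻¹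
    refine ⟨y, conj_mem_stab ρ (W' := Submodule.span F {x + d • zOne F, zOne F}) (fun w hw => ?_) ?_⟩
    · obtain ⟨s, t, rfl⟩ := Submodule.mem_span_pair.1 hw
      refine Submodule.mem_span_pair.2 ⟨s, t + s * c, ?_⟩
      simp only [mulVec_add, mulVec_smul, hc', h1]
      module
    · rw [Submodule.map_span, Set.image_pair, toLin'_apply, toLin'_apply, hy, hy, zAut_one, ← hh]
      congr 2
      exact inv_smul_smul h _
  rcases hab (zN x) with ⟨d, hd⟩ | ⟨d, hd⟩
  · exact (key _ d hd).imp fun _ => Or.inl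
  · exact (key _ d hd).imp fun _ => Or.inr

end CfsgLib.Cov2
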