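import Cfsg.Agent.Lib.Cov2.Three
import Cfsg.Agent.Lib.MatConj.FormUnip
import Cfsg.Agent.Lib.MatConj.PolyData
import Cfsg.Agent.Lib.Symp.Basic

/-! Coverings by two subgroups: `PSp_6` in characteristic three. -/

set_option autoImplicit false

namespace CfsgLib.Cov2

open Polynomial Module Matrix CfsgLib.MatConj CfsgLib.Forms Cfsg

variable {F : Type*} [Field F]

section General

variable {n : Type*} [Fintype n] [DecidableEq n]

theorem exists_faithful_vector (A : Matrix n n F) :
    ∃ u : n → F, ∀ a : F[X], aeval A a *ᵥ u = 0 → aeval A a = 0 := by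
  obtain ⟨t, g, h1, e, he⟩ := ed_spec (toLin' A)
  refine ⟨e.symm fun _ => 1, fun a ha => (aeval_eq_zero_iff_edM A a).2 fun x hx => ?_⟩
  have h2 := intertwine_aeval e.toLinearMap he a (e.symm fun _ => 1)
  rw [aeval_toLin', toLin'_apply, ha, map_zero, LinearEquiv.coe_coe, e.apply_symm_apply] at h2
  rw [edM, h1] at hx
  obtain ⟨i, -, rfl⟩ := Multiset.mem_map.1 hx
  have h3 := congrFun h2 i
  rw [aeval_mulX_apply, mul_one] at h3
  exact AdjoinRoot.mk_eq_zero.1 h3.symm

theorem aeval_mulVec_mem {A : Matrix n n F} {U : Submodule F (n → F)} (hU : ∀ w ∈ U, A *ᵥ w ∈ U)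
    (f : F[X]) : ∀ w ∈ U, aeval A f *ᵥ w ∈ U := by
  induction f using Polynomial.induction_on with
  | C c => exact fun w hw => by simpa [Algebra.algebraMap_eq_smul_one, smul_mulVec] using U.smul_mem c hw
  | add p q hp hq => exact fun w hw => by simpa [add_mulVec] using U.add_mem (hp w hw) (hq w hw)
  | monomial k c ih =>
    intro w hw
    rw [pow_succ, ← mul_assoc, map_mul, aeval_X, ← mulVec_mulVec]
    exact ih _ (hU w hw)

theorem mem_of_aeval_mem {A : Matrix n n F} {U : Submodule F (n → F)} (hU : ∀ w ∈ U, A *ᵥ w ∈ U)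
    {r l : F[X]} (hr : Irreducible r) (hA : aeval A r = 0) (hl : l.natDegree < r.natDegree)
    {v : n → F} (h : aeval A l *ᵥ v ∈ U) (hv : v ∉ U) : l = 0 := by
  by_contra h0
  obtain ⟨s, t, hst⟩ := hr.coprime_iff_not_dvd.2 (not_dvd_of_natDegree_lt h0 hl)
  have := congrArg (fun f => aeval A f *ᵥ v) hst
  simp only [map_add, map_mul, hA, mul_zero, zero_add, map_one, one_mulVec,
    ← mulVec_mulVec] at this
  exact hv (this ▸ aeval_mulVec_mem hU t _ h)

theorem rank_add_rank_one_sub {e : Matrix n n F} (he : e * e = e) :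
    e.rank + (1 - e).rank = Fintype.card n := by
  rw [← finrank_ker_add_rank e, add_comm, Matrix.rank]
  refine congrArg (fun W : Submodule F (n → F) => finrank F W + e.rank) (Submodule.ext fun v => ?_)
  simp only [LinearMap.mem_range, mulVecLin_apply, LinearMap.mem_ker, toLin'_apply]
  constructor
  · rintro ⟨w, rfl⟩
    rw [mulVec_mulVec, mul_sub, he, mul_one, sub_self, zero_mulVec]
  · exact fun h => ⟨v, by rw [sub_mulVec, h, one_mulVec, sub_zero]⟩

omit [DecidableEq n] in
theorem eq_zero_of_rank {M : Matrix n n F} (h : M.rank = 0) : M = 0 := by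
  classical
  exact matrix_ext_mulVec fun v => by
    rw [zero_mulVec]
    exact (Submodule.eq_bot_iff _).1 (Submodule.finrank_eq_zero.1 h) _ ⟨v, rfl⟩

theorem rank_le_of_cube {M : Matrix n n F} (h3 : M ^ 3 = 0) : 3 * M.rank ≤ 2 * Fintype.card n := by
  have h0 : IsNilpotent (1 + M - 1) := ⟨3, by simpa using h3⟩
  have h1 := jt_sum h0
  have h2 := card_jt_add_rank h0
  have := Multiset.sum_le_card_nsmul _ 3 ((sub_one_pow_eq_zero_iff h0 3).1 (by simpa using h3))
  rw [add_sub_cancel_left] at h2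
  rw [smul_eq_mul] at this
  omega

theorem two_mul_rank_le {M : Matrix n n F} (h : IsNilpotent M) (j : ℕ) :
    2 * (M ^ (j + 1)).rank ≤ (M ^ j).rank + (M ^ (j + 2)).rank := by
  have := count_jt_add (A := 1 + M) (by simpa using h) j
  rw [add_sub_cancel_left] at this
  omega

theorem rel_pow {R : Type*} [Ring R] {θ g : R} (h : θ * g = g * (θ + 1)) (j : ℕ) :
    θ * g ^ j = g ^ j * (θ + j) := by
  induction j with
  | zero => simp
  | succ j ih => rw [pow_succ, rel_mul ih h (Nat.cast_comm j g), Nat.cast_succ]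

variable (β : LinearMap.BilinForm F (n → F)) in
/-- There is an invariant non-degenerate plane. -/
def PL (g : Matrix n n F) : Prop :=
  ∃ u v, β u v ≠ 0 ∧ ∀ w ∈ Submodule.span F {u, v}, g *ᵥ w ∈ Submodule.span F {u, v}

theorem pl_of_pair {β : LinearMap.BilinForm F (n → F)} {g : Matrix n n F} {u v : n → F}
    (h : β u v ≠ 0) (hu : g *ᵥ u ∈ Submodule.span F {u, v}) (hv : g *ᵥ v ∈ Submodule.span F {u, v}) :
    PL β g := by
  refine ⟨u, v, h, fun w hw => ?_⟩
  obtain ⟨a, b, rfl⟩ := Submodule.mem_span_pair.1 hw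
  rw [mulVec_add, mulVec_smul, mulVec_smul]
  exact add_mem (Submodule.smul_mem _ _ hu) (Submodule.smul_mem _ _ hv)

end General

/-- The index type of `Sp_6`. -/
abbrev I6 : Type := Fin 3 ⊕ Fin 3

variable [CharP F 3]

theorem exists_deriv6 {g M : Matrix I6 I6 F} (hM : ∀ c, Commute c g → Commute c M) (h3 : M ^ 3 = 0)
    (hr : M.rank = 4) : ∃ D, D * g = g * (D + 1) := by
  let Y : Matrix (Fin 3) (Fin 3) F := !![0, 1, 0; 0, 0, 2; 0, 0, 0]
  obtain ⟨Y', hY⟩ := exists_weyl (J := fromBlocks (jordanBlock 3 F) 0 0 (jordanBlock 3 F))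
    (Y := fromBlocks Y 0 0 Y) ((edM_of_cube h3 (k := 2) rfl hr).trans
      (by rw [edM_fromBlocks, edM_jordanBlock (by omega)]; rfl)) (by
      have := weyl_three (F := F)
      rw [← fromBlocks_one, sub_eq_add_neg, sub_eq_add_neg, fromBlocks_neg, fromBlocks_add,
        fromBlocks_multiply, fromBlocks_multiply, fromBlocks_neg, fromBlocks_add]
      simp only [← sub_eq_add_neg, Matrix.mul_zero, Matrix.zero_mul, add_zero, zero_add, neg_zero,
        sub_zero, Y, this])
  exact exists_deriv hM hY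

variable [StarRing (Matrix I6 I6 F)] {β : LinearMap.BilinForm F (I6 → F)} (hβ : β.Nondegenerate)
  (hA : β.IsAlt) (hadj : ∀ (X : Matrix I6 I6 F) u v, β (X *ᵥ u) v = β u (star X *ᵥ v))

omit [CharP F 3] [StarRing (Matrix I6 I6 F)] in
include hβ hA in
theorem ts_le_three {W : Submodule F (I6 → F)} (h : ∀ x ∈ W, ∀ y ∈ W, β x y = 0) :
    finrank F W ≤ 3 := by
  have := PQ.TS.two_mul_finrank_le (ofAlt_nondeg β hA hβ) (W := W)
    ⟨fun w _ => ofAlt_sing β hA w, fun x hx y hy => h y hy x hx⟩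
  simp at this
  omega

omit [CharP F 3] [StarRing (Matrix I6 I6 F)] in
include hβ hA in
theorem card_le_three {κ : Type*} [Fintype κ] {v : κ → I6 → F} (hv : LinearIndependent F v)
    (h : ∀ i j, β (v i) (v j) = 0) : Fintype.card κ ≤ 3 := by
  rw [← finrank_span_eq_card hv]
  refine ts_le_three hβ hA fun x hx y hy => ?_
  obtain ⟨a, rfl⟩ := (Submodule.mem_span_range_iff_exists_fun F).1 hx
  obtain ⟨b, rfl⟩ := (Submodule.mem_span_range_iff_exists_fun F).1 hy
  simp [h]

include hA hadj in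
theorem alt_self {X : Matrix I6 I6 F} (hX : star X = X) (v : I6 → F) : β v (X *ᵥ v) = 0 := by
  have h := hadj X v v
  rw [hX, ← hA.neg_eq] at h
  linear_combination h + β v (X *ᵥ v) * (CharP.cast_eq_zero F 3 : (3 : F) = 0)

include hβ hA hadj

theorem even_rank_self {X : Matrix I6 I6 F} (hX : star X = X) : Even X.rank :=
  even_rank_of_alt hβ (alt_self hA hadj hX)

omit hβ in
theorem pow_alt {θ : Matrix I6 I6 F} (hθ : star θ = θ) (u : I6 → F) (i j : ℕ) :
    β (θ ^ i *ᵥ u) (θ ^ j *ᵥ u) = 0 := by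
  rw [hadj, star_pow, hθ, mulVec_mulVec, ← pow_add]
  exact alt_self hA hadj (by rw [star_pow, hθ]) u

theorem minpoly_le_three {θ : Matrix I6 I6 F} (hθ : star θ = θ) : (minpoly F θ).natDegree ≤ 3 := by
  obtain ⟨u, hu⟩ := exists_faithful_vector θ
  have := card_le_three hβ hA (v := fun i : Fin (minpoly F θ).natDegree => θ ^ i.1 *ᵥ u)
    (Fintype.linearIndependent_iff.2 fun c hc =>
      Fintype.linearIndependent_iff.1 (linearIndependent_pow θ) c (by
        have := hu (∑ i, C (c i) * X ^ i.1) (by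
          simpa [Algebra.algebraMap_eq_smul_one, sum_mulVec, smul_mulVec] using hc)
        simpa only [map_sum, map_mul, aeval_C, map_pow, aeval_X, Algebra.smul_def] using this))
    fun i j => pow_alt hA hadj hθ u i j
  simpa using this

theorem cubic_of_self {θ : Matrix I6 I6 F} (hθ : star θ = θ) :
    ∃ a b c : F, θ ^ 3 + a • θ ^ 2 + b • θ + c • 1 = 0 := by
  have h := minpoly_le_three hβ hA hadj hθ
  have hm := minpoly.monic (Algebra.IsIntegral.isIntegral (R := F) θ)
  exact cubic_of_monic (hm.mul (monic_X_pow (3 - (minpoly F θ).natDegree)))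
    (by rw [hm.natDegree_mul (monic_X_pow _), natDegree_X_pow]; omega) (by simp)

omit [CharP F 3] in
theorem pl_of_idem {f g : Matrix I6 I6 F} (hf : f * f = f) (hs : star f = f) (hg : Commute f g)
    (hr : f.rank = 2) : PL β g := by
  obtain ⟨_, ⟨x, rfl⟩, hu⟩ := Submodule.exists_mem_ne_zero_of_ne_bot
    (Submodule.finrank_eq_zero.not.1 (hr.trans_ne two_ne_zero) : LinearMap.range f.mulVecLin ≠ ⊥)
  rw [mulVecLin_apply] at hu
  obtain ⟨y, hy⟩ := not_forall.1 (mt (hβ.1 _) hu)
  have h1 : β (f *ᵥ x) (f *ᵥ y) ≠ 0 := by rwa [← hs, ← hadj, hs, mulVec_mulVec, hf]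
  have h2 : Submodule.span F {f *ᵥ x, f *ᵥ y} = LinearMap.range f.mulVecLin :=
    Submodule.eq_of_le_of_finrank_eq (Submodule.span_le.2 (by rintro _ (rfl | rfl) <;> exact ⟨_, rfl⟩))
      ((finrank_pair hu fun h => by
        obtain ⟨a, ha⟩ := Submodule.mem_span_singleton.1 h
        simp [← ha, hA.self_eq_zero] at h1).trans hr.symm)
  refine ⟨_, _, h1, ?_⟩
  rw [h2]
  rintro _ ⟨w, rfl⟩
  exact ⟨g *ᵥ w, by simp only [mulVecLin_apply, mulVec_mulVec, hg.eq]⟩

omit [CharP F 3] in
theorem mem_range_of_perp {X : Matrix I6 I6 F} (h : ∀ v, X *ᵥ v = 0 → star X *ᵥ v = 0)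
    {y : I6 → F} (hy : ∀ v, X *ᵥ v = 0 → β v y = 0) : y ∈ LinearMap.range X.mulVecLin := by
  have h1 := (ofAlt β hA).finrank_perp (ofAlt_nondeg β hA hβ) (LinearMap.ker (toLin' X))
  have h2 := finrank_ker_add_rank X
  rw [Submodule.eq_of_le_of_finrank_eq (S₁ := LinearMap.range X.mulVecLin)
    (S₂ := (ofAlt β hA).perp (LinearMap.ker (toLin' X))) (by
      rintro _ ⟨w, rfl⟩ v hv
      rw [ofAlt_B, ← hA.neg_eq, mulVecLin_apply, hadj, h v hv, map_zero, neg_zero]) (by
      rw [finrank_fintype_fun_eq_card] at h1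
      rw [Matrix.rank] at h2
      omega)]
  exact hy

theorem not_irred_quadratic {t : Matrix I6 I6 F} (ht : star t = t) {r : F[X]} (hr : Irreducible r)
    (h2 : r.natDegree = 2) (hm : r.Monic) (h : aeval t r = 0) : False := by
  obtain ⟨u, hu⟩ := exists_ne (0 : I6 → F)
  have h0 : ∀ v, t *ᵥ t *ᵥ v = -r.coeff 0 • v + -r.coeff 1 • t *ᵥ v := fun v => by
    have := congrArg (· *ᵥ v) h
    rw [hm.as_sum, h2] at this
    simp only [Finset.sum_range_succ, Finset.range_zero, Finset.sum_empty, map_add, map_mul,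
      aeval_C, aeval_X, pow_zero, pow_one, zero_add, sq, Algebra.algebraMap_eq_smul_one,
      smul_mul_assoc, one_mul, add_mulVec, smul_mulVec, map_one, one_mulVec, ← mulVec_mulVec,
      zero_mulVec] at this
    linear_combination (norm := module) this
  let U := Submodule.span F {u, t *ᵥ u}
  have hU : ∀ w ∈ U, t *ᵥ w ∈ U := fun w hw => by
    obtain ⟨a, b, rfl⟩ := Submodule.mem_span_pair.1 hw
    refine Submodule.mem_span_pair.2 ⟨-b * r.coeff 0, a - b * r.coeff 1, ?_⟩
    rw [mulVec_add, mulVec_smul, mulVec_smul, h0]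
    module
  have h1 := (ofAlt β hA).finrank_perp (ofAlt_nondeg β hA hβ) U
  have h3 : finrank F U ≤ 2 := by
    classical
    exact (finrank_span_le_card _).trans (by simpa using Finset.card_le_two)
  obtain ⟨v, hv, hvU⟩ : ∃ v ∈ (ofAlt β hA).perp U, v ∉ U := by
    by_contra h4
    push Not at h4
    have := Submodule.finrank_mono (show _ ≤ U from h4)
    simp at h1
    omega
  have h4 : β u v = 0 := hv u (Submodule.subset_span (by simp))
  have h5 : β (t *ᵥ u) v = 0 := hv _ (Submodule.subset_span (by simp))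
  have h6 : β u (t *ᵥ v) = 0 := by rw [← ht, ← hadj, h5]
  have h7 : β (t *ᵥ u) (t *ᵥ v) = 0 := by rw [hadj, ht, h0]; simp [h4, h6]
  have h8 := alt_self hA hadj ht
  have h9 : ∀ (c d : F) (W : Submodule F (I6 → F)) w, (∀ w ∈ W, t *ᵥ w ∈ W) → w ∉ W →
      c • w + d • t *ᵥ w ∈ W → c = 0 ∧ d = 0 := fun c d W w hW hw h' => by
    have := mem_of_aeval_mem hW hr h (l := C d * X + C c) (natDegree_linear_le.trans_lt (by omega))
      (v := w) (by simpa [add_mulVec, Algebra.algebraMap_eq_smul_one, smul_mulVec, add_comm]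
        using h') hw
    exact ⟨by simpa using congrArg (coeff · 0) this, by simpa using congrArg (coeff · 1) this⟩
  have := card_le_three hβ hA (v := ![u, t *ᵥ u, v, t *ᵥ v]) (Fintype.linearIndependent_iff.2
    fun c hc => by
      simp only [Fin.sum_univ_four, cons_val] at hc
      obtain ⟨e2, e3⟩ := h9 (c 2) (c 3) U v hU hvU (Submodule.mem_span_pair.2
        ⟨-c 0, -c 1, by linear_combination (norm := module) -hc⟩)
      obtain ⟨e0, e1⟩ := h9 (c 0) (c 1) ⊥ u (by simp) hu (by simpa [e2, e3] using hc)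
      intro i
      fin_cases i <;> assumption) fun i j => by
      fin_cases i <;> fin_cases j <;>
        simp [hA.self_eq_zero, h4, h5, h6, h7, h8, hA.isRefl _ _ h4, hA.isRefl _ _ h5,
          hA.isRefl _ _ h6, hA.isRefl _ _ h7, hA.isRefl _ _ (h8 _)]
  simp at this

section Unitary

variable {g : Matrix I6 I6 F} (hg : star g * g = 1)
include hg

theorem diff_mem_range (hP : ¬ PL β g) {τ : F} {u : I6 → F} (hu : (g + star g - τ • 1) *ᵥ u = 0) :
    (g - star g) *ᵥ u ∈ LinearMap.range (g + star g - τ • 1).mulVecLin := by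
  have hg' := mul_eq_one_comm.1 hg
  have h1 : ∀ v, (g + star g - τ • 1) *ᵥ v = 0 → β v (g *ᵥ v) = 0 := fun v hv => by
    by_contra h
    refine hP (pl_of_pair h (Submodule.subset_span (by simp)) (Submodule.mem_span_pair.2
      ⟨-1, τ, ?_⟩))
    have := congrArg (g *ᵥ ·) hv
    simp only [sub_mulVec, add_mulVec, smul_mulVec, one_mulVec, mulVec_sub, mulVec_add,
      mulVec_smul, mulVec_mulVec v g (star g), hg', mulVec_zero] at this
    linear_combination (norm := module) -this
  refine mem_range_of_perp hβ hA hadj (fun v hv => by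
    simpa [star_smul_adj hβ hadj, add_comm] using hv) fun v hv => ?_
  have h2 := h1 (u + v) (by rw [mulVec_add, hu, hv, add_zero])
  simp only [mulVec_add, map_add, LinearMap.add_apply, h1 u hu, h1 v hv] at h2
  rw [sub_mulVec, map_sub, ← hadj, ← hA.neg_eq u]
  linear_combination h2

theorem deriv_of_two (hP : ¬ PL β g) (h2 : (g + star g - (2 : F) • 1) ^ 2 = 0)
    (hr : (g + star g - (2 : F) • 1).rank ≤ 2) : ∃ D, D * g = g * (D + 1) := by
  have hg' := mul_eq_one_comm.1 hg
  have h3 : (3 : Matrix I6 I6 F) = 0 := three_eq_zero F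
  have hd := fun u => diff_mem_range hβ hA hadj hg hP (τ := 2) (u := u)
  have hN : g * (g + star g - (2 : F) • 1) = (g - 1) ^ 2 := by
    rw [mul_sub, mul_add, hg', two_smul]; noncomm_ring
  have hc : Commute g (g + star g - (2 : F) • 1) :=
    ((Commute.refl g).add_right (hg'.trans hg.symm)).sub_right ((Commute.one_right g).smul_right _)
  have he : g * (g - star g) = (g - 1) ^ 2 - (g - 1) := by
    rw [mul_sub, hg']
    calc g * g - 1 = (g - 1) ^ 2 - (g - 1) + 3 * (g - 1) := by noncomm_ring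
      _ = _ := by rw [h3, zero_mul, add_zero]
  generalize g + star g - (2 : F) • 1 = N at h2 hr hd hN hc
  have h4 : IsNilpotent (g - 1) := ⟨2 * 2, by rw [pow_mul, ← hN, hc.mul_pow, h2, mul_zero]⟩
  have h5 : ((g - 1) ^ 2).rank = N.rank := by
    rw [← hN, rank_mul_eq_right_of_isUnit_det _ _
      ((isUnit_iff_isUnit_det g).1 (IsUnit.of_mul_eq_one _ hg'))]
  have h6 : LinearMap.ker (toLin' (g - 1)) ≤ LinearMap.range N.mulVecLin := fun y hy => by
    obtain ⟨x, rfl⟩ := mem_range_of_perp hβ hA hadj (X := g - 1) (y := y) (fun v hv => by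
      rw [show star (g - 1) = -star g * (g - 1) by simp [mul_sub, hg, neg_add_eq_sub], ← mulVec_mulVec, hv,
        mulVec_zero]) fun v hv => by
      by_contra h
      have h7 : ∀ w, (g - 1) *ᵥ w = 0 → g *ᵥ w = w := fun w hw => by
        simpa [sub_mulVec, sub_eq_zero] using hw
      exact hP (pl_of_pair h (by rw [h7 v hv]; exact Submodule.subset_span (by simp))
        (by rw [h7 y hy]; exact Submodule.subset_span (by simp)))
    have h7 : (g - 1) ^ 2 *ᵥ x = 0 := by rw [sq, ← mulVec_mulVec]; exact hy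
    obtain ⟨z, hz⟩ := hd x (by
      rw [← one_mul N, ← hg, mul_assoc, hN, ← mulVec_mulVec, h7, mulVec_zero])
    refine ⟨-(g *ᵥ z), ?_⟩
    rw [mulVecLin_apply] at hz ⊢
    rw [mulVec_neg, mulVec_mulVec, ← hc.eq, ← mulVec_mulVec, hz, mulVec_mulVec, he, sub_mulVec, h7,
      zero_sub, neg_neg, mulVecLin_apply]
  have h7 := Submodule.finrank_mono h6
  have h8 := finrank_ker_add_rank (g - 1)
  have h9 := two_mul_rank_le h4 0
  rw [zero_add, zero_add, pow_one, pow_zero, rank_one, h5] at h9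
  rw [show Fintype.card I6 = 6 from rfl] at h8 h9
  change _ ≤ N.rank at h7
  have h10 := Submodule.eq_of_le_of_finrank_eq h6 (by change _ = N.rank; omega)
  refine exists_deriv6 (M := g - 1) (fun c hc => hc.sub_right (Commute.one_right c)) ?_ (by omega)
  have h11 : (g - 1) * N = 0 := matrix_ext_mulVec fun v => by
    rw [← mulVec_mulVec, zero_mulVec]
    exact (h10.ge ⟨v, rfl⟩ :)
  rw [pow_succ', ← hN, hc.eq, ← mul_assoc, h11, zero_mul]

theorem deriv_of_cube (hP : ¬ PL β g) {τ : F} (h3 : (g + star g - τ • 1) ^ 3 = 0) :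
    ∃ D, D * g = g * (D + 1) := by
  have hg' := mul_eq_one_comm.1 hg
  have hs : star (g + star g - τ • 1) = g + star g - τ • 1 := by
    simp [star_smul_adj hβ hadj, add_comm]
  have h1 := even_rank_self hβ hA hadj hs
  have h2 := rank_le_of_cube h3
  rw [show Fintype.card I6 = 6 from rfl] at h2
  by_cases h4 : (g + star g - τ • 1).rank = 4
  · refine exists_deriv6 (fun c hc => (hc.add_right ?_).sub_right
      ((Commute.one_right c).smul_right _)) h3 h4
    calc c * star g = star g * (g * c) * star g := by rw [← mul_assoc, hg, one_mul]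
      _ = _ := by rw [← hc.eq, mul_assoc, mul_assoc, hg', mul_one]
  have h5 : (g + star g - τ • 1).rank ≤ 2 := by obtain ⟨k, hk⟩ := h1; omega
  have h6 : (g + star g - τ • 1) ^ 2 = 0 := by
    obtain ⟨k, hk⟩ := even_rank_self hβ hA hadj (X := (g + star g - τ • 1) ^ 2)
      (by rw [star_pow, hs])
    have := two_mul_rank_le ⟨3, h3⟩ 1
    rw [h3, rank_zero, pow_one, one_add_one_eq_two] at this
    exact eq_zero_of_rank (by omega)
  obtain ⟨u, hu, hu0⟩ := Submodule.exists_mem_ne_zero_of_ne_bot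
    (LinearMap.ker_ne_bot_of_finrank_lt (f := (toLin' (g - star g)).restrict
      (p := LinearMap.ker (toLin' (g + star g - τ • 1)))
      (q := LinearMap.range (g + star g - τ • 1).mulVecLin)
      fun u hu => diff_mem_range hβ hA hadj hg hP hu) (by
        have := finrank_ker_add_rank (g + star g - τ • 1)
        rw [show Fintype.card I6 = 6 from rfl] at this
        change (g + star g - τ • 1).rank < _
        omega))
  have h7 : (g - star g) *ᵥ u.1 = 0 := congrArg Subtype.val hu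
  have h8 : (g + star g) *ᵥ u.1 = τ • u.1 := by
    have : (g + star g - τ • 1) *ᵥ u.1 = 0 := u.2
    rwa [sub_mulVec, smul_mulVec, one_mulVec, sub_eq_zero] at this
  have h9 : ((τ - 2) * (τ + 2)) • u.1 = 0 := by
    have : (g + star g) * (g + star g) = (g - star g) * (g - star g) + (4 : F) • 1 := by
      simp only [mul_add, add_mul, mul_sub, sub_mul, hg, hg']
      module
    have := congrArg (· *ᵥ u.1) this
    simp only [add_mulVec _ ((4 : F) • 1), ← mulVec_mulVec, h7, h8, mulVec_smul, mulVec_zero,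
      smul_mulVec, one_mulVec] at this
    linear_combination (norm := module) this
  rcases mul_eq_zero.1 ((smul_eq_zero.1 h9).resolve_right fun h => hu0 (Subtype.ext h)) with h | h
  · obtain rfl := sub_eq_zero.1 h
    exact deriv_of_two hβ hA hadj hg hP h6 h5
  · obtain rfl := eq_neg_of_add_eq_zero_left h
    have e : -g + star (-g) - (2 : F) • 1 = -(g + star g - (-2 : F) • 1) := by
      rw [star_neg]; module
    obtain ⟨D, hD⟩ := deriv_of_two hβ hA hadj (g := -g) (by simpa using hg)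
      (fun ⟨u, v, h, h'⟩ => hP ⟨u, v, h, fun w hw => by simpa [neg_mulVec] using h' w hw⟩)
      (by rw [e, neg_sq, h6]) (by rwa [e, ← neg_one_smul F, rank_smul_of_ne_zero _ (by simp)])
    exact ⟨D, by simpa using hD⟩

theorem sp6_cases [Finite F] {c : F} (hc : Irreducible (asP c)) : PL β g ∨ ∃ θ, ∃ k : F,
    (star θ = θ ∧ θ ^ 3 - θ = c • 1) ∧ θ * g = g * (θ + k • 1) := by
  have hg' := mul_eq_one_comm.1 hg
  have h3 : (3 : Matrix I6 I6 F) = 0 := three_eq_zero F
  have hσ : ∀ (b : F) (X : Matrix I6 I6 F), star (b • X) = RingHom.id F b • star X :=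
    star_smul_adj hβ hadj
  have ht : star (g + star g) = g + star g := by simp [add_comm]
  have hgt : Commute g (g + star g) := (Commute.refl g).add_right (hg'.trans hg.symm)
  have hi := Algebra.IsIntegral.isIntegral (R := F) (g + star g)
  have hm := minpoly.monic hi
  have h1 := minpoly_le_three hβ hA hadj ht
  have h2 := minpoly.natDegree_pos hi
  refine or_iff_not_imp_left.2 fun hP => ?_
  by_cases h : ∀ τ, ¬ (minpoly F (g + star g)).IsRoot τ
  · have h4 := irreducible_of_degree_le_three_of_not_isRoot (Finset.mem_Icc.2 ⟨h2, h1⟩) h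
    obtain h5 | h5 | h5 : (minpoly F (g + star g)).natDegree = 1 ∨
      (minpoly F (g + star g)).natDegree = 2 ∨ (minpoly F (g + star g)).natDegree = 3 := by omega
    · obtain ⟨τ, hτ⟩ := exists_root_of_degree_eq_one (p := minpoly F (g + star g))
        (by rw [degree_eq_natDegree hm.ne_zero, h5]; rfl)
      exact absurd hτ (h τ)
    · exact (not_irred_quadratic hβ hA hadj ht h4 h5 hm (minpoly.aeval F _)).elim
    · obtain ⟨f, hf⟩ := exists_root_aeval (g + star g) hc fun x hx => by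
        rw [edM_of_irred h4 hm (minpoly.aeval F (g + star g))] at hx
        rw [Multiset.eq_of_mem_replicate hx, h5, asP_natDegree]
      refine ⟨aeval (g + star g) f, 0, ⟨?_, aeval_asP.1 hf⟩, by simpa using (aeval_commute hgt f).eq.symm⟩
      rw [aeval_eq_sum_range, star_sum]
      simp only [star_smul_adj hβ hadj, star_pow, ht]
  push Not at h
  obtain ⟨τ, hτ⟩ := h
  have hs : star (g + star g - τ • 1) = g + star g - τ • 1 := by
    rw [star_sub, ht, star_smul_adj hβ hadj, star_one]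
  have hgN : Commute g (g + star g - τ • 1) := hgt.sub_right ((Commute.one_right g).smul_right _)
  have hN : aeval (g + star g) (X - C τ) = g + star g - τ • 1 := by
    simp [Algebra.algebraMap_eq_smul_one]
  obtain ⟨k, hk, he⟩ := exists_pow_idem (g + star g - τ • 1)
  have h4 := rank_add_rank_one_sub he
  rw [show Fintype.card I6 = 6 from rfl] at h4
  have hse : star ((g + star g - τ • 1) ^ k) = (g + star g - τ • 1) ^ k := by rw [star_pow, hs]
  obtain ⟨l, hl⟩ := even_rank_self hβ hA hadj hse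
  have h5 : ((g + star g - τ • 1) ^ k).rank ≠ 2 := fun h =>
    hP (pl_of_idem hβ hA hadj he hse (hgN.symm.pow_left k) h)
  have h6 : (1 - (g + star g - τ • 1) ^ k).rank ≠ 2 := fun h =>
    hP (pl_of_idem hβ hA hadj (by simp [mul_sub, sub_mul, he]) (by rw [star_sub, star_one, hse])
      ((Commute.one_left g).sub_left (hgN.symm.pow_left k)) h)
  have h7 : (1 - (g + star g - τ • 1) ^ k).rank ≠ 0 := fun h => by
    obtain ⟨r, hr⟩ := dvd_iff_isRoot.2 hτ
    have h8 := minpoly.aeval F (g + star g)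
    rw [hr, map_mul, hN, (IsUnit.of_pow_eq_one (sub_eq_zero.1 (eq_zero_of_rank h)).symm
      hk.ne').mul_right_eq_zero] at h8
    have h9 : r ≠ 0 := by rintro rfl; exact hm.ne_zero (by simpa using hr)
    have := natDegree_le_of_dvd (minpoly.dvd F _ h8) h9
    rw [hr, natDegree_mul (X_sub_C_ne_zero τ) h9, natDegree_X_sub_C] at this
    omega
  have h8 : (g + star g - τ • 1) ^ 3 = 0 := by
    obtain ⟨j, -, hj⟩ := (dvd_prime_pow (prime_X_sub_C τ) k).1 (minpoly.dvd F (g + star g)
      (by rw [map_pow, hN]; exact eq_zero_of_rank (by omega)))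
    have h9 := eq_of_monic_of_associated hm ((monic_X_sub_C τ).pow j) hj
    rw [h9, natDegree_pow, natDegree_X_sub_C, mul_one] at h1
    exact pow_eq_zero_of_le h1 (by rw [← hN, ← map_pow, ← h9, minpoly.aeval])
  obtain ⟨D, hD⟩ := deriv_of_cube hβ hA hadj hg hP h8
  have h9 : g ^ 3 + star g ^ 3 = τ ^ 3 • 1 := by
    have := cube_add h3 (x := g + star g - τ • 1) (y := τ • 1) ((Commute.one_right _).smul_right _)
    rwa [sub_add_cancel, h8, zero_add, _root_.smul_pow, one_pow,
      cube_add h3 (hg'.trans hg.symm)] at this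
  suffices ∃ θ, star θ = θ ∧ θ ^ 3 - θ = c • 1 ∧ θ * g = g * (θ + 1) from
    this.imp fun θ h => ⟨1, ⟨h.1, h.2.1⟩, by rw [one_smul]; exact h.2.2⟩
  by_cases h0 : τ = 0
  · have h10 : g ^ 6 = -1 := by
      have := congrArg (g ^ 3 * ·) h9
      simp only [mul_add, ← pow_add, ← Commute.mul_pow (hg'.trans hg.symm), hg', h0] at this
      simpa [eq_neg_iff_add_eq_zero] using this
    have h11 : (g ^ 4) ^ 3 = 1 := by
      rw [← pow_mul, show 4 * 3 = 6 * 2 from rfl, pow_mul, h10, neg_sq, one_pow]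
    exact exists_as_elem hσ hg hg' hD (x := g ^ 4)
      (by rw [star_pow, ← Commute.mul_pow (hg.trans hg'.symm), hg, one_pow])
      (by rw [star_pow, ← Commute.mul_pow (hg'.trans hg.symm), hg', one_pow])
      ((Commute.refl g).pow_left 4) (fun θ h => by
        rw [rel_pow h 4, show ((4 : ℕ) : Matrix I6 I6 F) = 1 + 3 by norm_num, h3, add_zero])
      (s := 2) (by rw [← star_pow, h11, star_one, two_smul])
      (fun h => one_ne_zero (α := F) (by
        linear_combination (CharP.cast_eq_zero F 3 : (3 : F) = 0) - h))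
      (fun θ => cubic_of_self hβ hA hadj) rfl
  · exact exists_as_elem hσ hg hg' hD hg hg' (Commute.refl g) (fun _ h => h) h9 (pow_ne_zero 3 h0)
      (fun θ => cubic_of_self hβ hA hadj) rfl

end Unitary

/-- The frame attached to an Artin-Schreier element. -/
theorem exists_frame {c : F} (hc : Irreducible (asP c)) {θ : Matrix I6 I6 F} (h1 : star θ = θ)
    (h2 : θ ^ 3 - θ = c • 1) : ∃ b : I6 → I6 → F, LinearIndependent F b ∧
      (∀ i j, β (b i) (b j) =
        fromBlocks 0 !![0, 0, 1; 0, 1, 0; 1, 0, 1] (-!![0, 0, 1; 0, 1, 0; 1, 0, 1]) 0 i j) ∧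
      ∀ i, θ *ᵥ b i = Sum.elim ![b (.inl 1), b (.inl 2), b (.inl 1) + c • b (.inl 0)]
        ![b (.inr 1), b (.inr 2), b (.inr 1) + c • b (.inr 0)] i := by
  obtain ⟨u, hu⟩ := exists_ne (0 : I6 → F)
  have h3 : ∀ v, θ *ᵥ θ *ᵥ θ *ᵥ v = θ *ᵥ v + c • v := fun v => by
    have := congrArg (· *ᵥ v) h2
    simp only [pow_succ, pow_zero, one_mul, sub_mulVec, ← mulVec_mulVec, smul_mulVec,
      one_mulVec] at this
    linear_combination (norm := module) this
  obtain ⟨v, hv, hv'⟩ := (ofAlt β hA).exists_dual_vec (ofAlt_nondeg β hA hβ)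
    (Submodule.span F {u, θ *ᵥ u}) (u := -(θ *ᵥ θ *ᵥ u)) fun h => by
      obtain ⟨a, b, hab⟩ := Submodule.mem_span_pair.1 h
      have := mem_of_aeval_mem (U := ⊥) (by simp) hc (aeval_asP.2 h2)
        (l := X ^ 2 + C b * X + C a) (by rw [asP_natDegree]; compute_degree!) (v := u) (by
          simp only [map_add, map_mul, aeval_X, aeval_C, sq, Algebra.algebraMap_eq_smul_one,
            add_mulVec, smul_mul_assoc, one_mul, smul_mulVec, one_mulVec, ← mulVec_mulVec,
            Submodule.mem_bot]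
          linear_combination (norm := module) hab) hu
      simpa using congrArg (coeff · 2) this
  have e0 : β u v = 0 := hA.isRefl _ _ (hv' u (Submodule.subset_span (by simp)))
  have e1 : β u (θ *ᵥ v) = 0 := by
    rw [← h1, ← hadj]
    exact hA.isRefl _ _ (hv' _ (Submodule.subset_span (by simp)))
  have ha : ∀ x y, β (θ *ᵥ x) y = β x (θ *ᵥ y) := fun x y => by rw [hadj, h1]
  have e2 : β u (θ *ᵥ θ *ᵥ v) = 1 := by
    rw [← ha, ← ha, ← hA.neg_eq, ← map_neg]; exact hv
  have e3 : ∀ x, β x (θ *ᵥ x) = 0 := alt_self hA hadj h1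
  have e4 : ∀ x, β x (θ *ᵥ θ *ᵥ x) = 0 := fun x => by rw [← ha, hA.self_eq_zero]
  have f0 : β v u = 0 := hA.isRefl _ _ e0
  have f1 : β v (θ *ᵥ u) = 0 := by rw [← hA.neg_eq, ha, e1, neg_zero]
  have f2 : β v (θ *ᵥ θ *ᵥ u) = -1 := by rw [← hA.neg_eq, ha, ha, e2]
  let b : I6 → I6 → F := Sum.elim ![u, θ *ᵥ u, θ *ᵥ θ *ᵥ u] ![v, θ *ᵥ v, θ *ᵥ θ *ᵥ v]
  have hb : ∀ i j, β (b i) (b j) =
      fromBlocks 0 !![0, 0, 1; 0, 1, 0; 1, 0, 1] (-!![0, 0, 1; 0, 1, 0; 1, 0, 1]) 0 i j := by
    rintro (i | i) (j | j) <;> fin_cases i <;> fin_cases j <;>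
      simp [b, -mulVec_mulVec, ha, h3, mulVec_add, mulVec_smul, e0, e1, e2, e3, e4, f0, f1, f2,
        hA.self_eq_zero]
  refine ⟨b, Fintype.linearIndependent_iff.2 fun a h => ?_, hb, ?_⟩
  · have k : ∀ j, ∑ i, a i * β (b i) (b j) = 0 := fun j => by
      simpa using congrArg (β · (b j)) h
    have k0 := k (.inl 0); have k1 := k (.inl 1); have k2 := k (.inl 2)
    have k3 := k (.inr 0); have k4 := k (.inr 1); have k5 := k (.inr 2)
    simp [hb, Fin.sum_univ_three] at k0 k1 k2 k3 k4 k5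
    rintro (i | i) <;> fin_cases i <;> simp_all
  · rintro (i | i) <;> fin_cases i <;> simp [b, -mulVec_mulVec, h3]

theorem exists_conj_as {c : F} (hc : Irreducible (asP c)) {θ θ' : Matrix I6 I6 F}
    (h : star θ = θ ∧ θ ^ 3 - θ = c • 1) (h' : star θ' = θ' ∧ θ' ^ 3 - θ' = c • 1) :
    ∃ e : (I6 → F) ≃ₗ[F] (I6 → F), (∀ u v, β (e u) (e v) = β u v) ∧ ∀ v, e (θ *ᵥ v) = θ' *ᵥ e v := by
  obtain ⟨b, h1, h2, h3⟩ := exists_frame hβ hA hadj hc h.1 h.2
  obtain ⟨b', h1', h2', h3'⟩ := exists_frame hβ hA hadj hc h'.1 h'.2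
  obtain ⟨e, he, he'⟩ := witt_alt_family β hβ hA b b' h1 h1' fun i j => (h2' i j).trans (h2 i j).symm
  refine ⟨e, he, fun v => LinearMap.congr_fun ((basisOfLinearIndependentOfCardEqFinrank h1
    (by simp)).ext (f₁ := e.toLinearMap ∘ₗ toLin' θ) (f₂ := toLin' θ' ∘ₗ e.toLinearMap)
    fun i => ?_) v⟩
  simp only [coe_basisOfLinearIndependentOfCardEqFinrank, LinearMap.comp_apply, toLin'_apply,
    LinearEquiv.coe_coe, he', h3, h3']
  rcases i with i | i <;> fin_cases i <;> simp [he']

omit hβ hA hadj [StarRing (Matrix I6 I6 F)]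

theorem cov_psp6 [Finite F] : Cov (PSp 3 F) := by
  have hβ := spB_nondegenerate (Fin 3) F
  have hA := spB_isAlt (Fin 3) F
  obtain ⟨_, hadj⟩ := exists_adjoint_star (spB (Fin 3) F) hβ (ε := -1)
    fun x y => by rw [← hA.neg_eq, neg_one_mul]
  obtain ⟨c, -, hc⟩ := exists_asP (σ := RingHom.id F) fun _ => rfl
  let ρ := (symplecticGroup (Fin 3) F).subtype
  have hz : ∀ g ∈ Subgroup.center (symplecticGroup (Fin 3) F), ∃ a : F, ρ g = a • 1 := fun g hg => by
    rcases Symp.mem_center_iff.1 hg with rfl | rfl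
    · exact ⟨1, by simp⟩
    · exact ⟨-1, by simp [ρ, Symp.spNegOne]⟩
  let e : I6 → F := Pi.single (.inl 0) 1
  let f : I6 → F := Pi.single (.inr 0) 1
  refine cov_of_maybe _ (stab ρ (Submodule.span F {f, e})) (fun θ => nrm ρ θ ⊤)
    (fun θ => star θ = θ ∧ θ ^ 3 - θ = c • 1)
    (fun g hg => (hz g hg).elim fun a => mem_stab_of_scalar _) (fun h => ?_)
    (fun θ hθ => ⟨fun g hg => (hz g hg).elim fun a => mem_nrm_of_scalar _, ?_⟩) fun g => ?_
  · have h1 : (⟨_, sympTransvection_mem 3 (e + Pi.single (.inl 1) 1) 1⟩ : symplecticGroup (Fin 3) F) ∈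
      stab ρ (Submodule.span F {f, e}) := h ▸ Subgroup.mem_top _
    obtain ⟨a, b, hab⟩ := Submodule.mem_span_pair.1 (h1 f (Submodule.subset_span (by simp)))
    have := congrFun hab (.inl 1)
    change _ = (sympTransvection 3 _ 1 *ᵥ f) _ at this
    rw [sympTransvection_mulVec, spB_single_inr_left] at this
    simp [e, f] at this
  · refine nrm_ne_top ρ hc hθ.2 (by simp) (g := ⟨_, sympTransvection_mem 3 e 1⟩) (v := e)
      (w := J (Fin 3) F *ᵥ e) (by simp [e]) (fun h => ?_) (by simp [ρ, sympTransvection])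
    have := congrFun h (.inr 0)
    rw [J_mulVec_inr] at this
    simp [e] at this
  have hg : star (ρ g) * ρ g = 1 := (star_mul_self_eq_one_iff hβ hadj).2 ((mem_sp_iff _).1 g.2)
  refine (sp6_cases hβ hA hadj hg hc).imp (fun ⟨u, v, h1, h2⟩ => ?_) fun ⟨θ, k, h, h'⟩ =>
    ⟨θ, h, fun θ' hθ' => ?_⟩
  · have h3 : ∀ u v : I6 → F, spB (Fin 3) F u v = 1 → LinearIndependent F ![u, v] := fun u v h =>
      LinearIndependent.pair_iff.2 fun s t h' =>
        ⟨by simpa [h, hA.self_eq_zero] using congrArg (spB (Fin 3) F · v) h',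
          by simpa [h, hA.self_eq_zero] using congrArg (spB (Fin 3) F u ·) h'⟩
    have h4 : spB (Fin 3) F u ((spB (Fin 3) F u v)⁻¹ • v) = 1 := by simp [h1]
    have h5 : spB (Fin 3) F f e = 1 := by rw [spB_single_inr_left]; simp [e]
    obtain ⟨y, hy, hy'⟩ := witt_alt_family _ hβ hA _ _ (h3 _ _ h4) (h3 _ _ h5) fun i j => by
      fin_cases i <;> fin_cases j
      · simp [hA.self_eq_zero]
      · exact h5.trans h4.symm
      · exact (hA.neg_eq _ _).symm.trans ((congrArg _ (h5.trans h4.symm)).trans (hA.neg_eq _ _))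
      · exact (hA _).trans (hA _).symm
    obtain ⟨x, hx⟩ := exists_sp_of_linearMap y.toLinearMap ((spPQ_isIso _ _ _).2 hy)
    refine ⟨x, conj_mem_stab ρ h2 ?_⟩
    rw [Submodule.span_insert, ← Submodule.span_singleton_smul_eq (inv_ne_zero h1).isUnit v,
      ← Submodule.span_insert, Submodule.map_span, Set.image_pair]
    exact congrArg₂ (Submodule.span F {·, ·}) ((hx _).trans (hy' 0)) ((hx _).trans (hy' 1))
  · obtain ⟨y, hy, hy'⟩ := exists_conj_as hβ hA hadj hc h hθ'
    obtain ⟨x, hx⟩ := exists_sp_of_linearMap y.toLinearMap ((spPQ_isIso _ _ _).2 hy)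
    refine ⟨x, conj_mem_nrm ρ trivial h' (matrix_ext_mulVec fun v => ?_)⟩
    rw [← mulVec_mulVec, ← mulVec_mulVec]
    exact (hx _).trans ((hy' v).trans (congrArg _ (hx v).symm))

end CfsgLib.Cov2
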