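import Cfsg.Agent.Lib.Cov2.Uni

/-! Coverings by two subgroups: Artin-Schreier elements in characteristic three, and `PSU_3`. -/

set_option autoImplicit false

namespace CfsgLib.Cov2

open Polynomial Module Matrix CfsgLib.MatConj CfsgLib.Forms CfsgLib.Unitary Cfsg

variable {F : Type*} [Field F]

section Ring

variable {R : Type*} [Ring R]

theorem cube_shift (h3 : (3 : R) = 0) {θ y z : R} (h1 : θ * y = y * θ + z) (h2 : θ * z = z * θ + y)
    (h : z * y = y * z) : (θ + y) ^ 3 - (θ + y) = θ ^ 3 - θ + y ^ 3 := by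
  have e1 : θ * (θ * y) = y * θ * θ + 2 * (z * θ) + y := by
    rw [h1, mul_add, ← mul_assoc, h1, h2]; noncomm_ring
  have e2 : θ * y * θ = y * θ * θ + z * θ := by rw [h1]; noncomm_ring
  have e3 : θ * y * y = y * y * θ + 2 * (y * z) := by
    rw [h1, add_mul, mul_assoc, h1, h]; noncomm_ring
  have e4 : y * (θ * y) = y * y * θ + y * z := by rw [h1]; noncomm_ring
  calc (θ + y) ^ 3 - (θ + y) = θ ^ 3 - θ + y ^ 3 + (θ * (θ * y) + θ * y * θ + θ * y * y +
        y * (θ * y) + y * θ * θ + y * y * θ - y) := by noncomm_ring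
    _ = θ ^ 3 - θ + y ^ 3 + 3 * (y * θ * θ + z * θ + y * y * θ + y * z) := by
        rw [e1, e2, e3, e4]; noncomm_ring
    _ = _ := by rw [h3, zero_mul, add_zero]

theorem cube_add (h3 : (3 : R) = 0) {x y : R} (h : Commute x y) : (x + y) ^ 3 = x ^ 3 + y ^ 3 := by
  have := cube_shift h3 (θ := x) (y := y) (z := 0 * x)
  rw [h.add_pow]
  simp [Finset.sum_range_succ, Nat.choose, h3, add_comm]

theorem rel_mul {θ g h : R} {k l : R} (hg : θ * g = g * (θ + k)) (hh : θ * h = h * (θ + l))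
    (hk : k * h = h * k) : θ * (g * h) = g * h * (θ + (k + l)) := by
  rw [← mul_assoc, hg, mul_assoc, add_mul, hh, hk]; noncomm_ring

variable [Algebra F R]

theorem cubic_of_monic {θ : R} {π : F[X]} (hm : π.Monic) (h3 : π.natDegree = 3)
    (h : aeval θ π = 0) : ∃ a b c : F, θ ^ 3 + a • θ ^ 2 + b • θ + c • 1 = 0 := by
  rw [hm.as_sum, h3] at h
  refine ⟨π.coeff 2, π.coeff 1, π.coeff 0, ?_⟩
  rw [← h]
  simp [Finset.sum_range_succ, Algebra.algebraMap_eq_smul_one]
  abel

variable [CharP F 3]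

variable (F) in
include F in
theorem three_eq_zero : (3 : R) = 0 := by
  rw [← map_ofNat (algebraMap F R), show (OfNat.ofNat 3 : F) = 0 from CharP.cast_eq_zero F 3,
    map_zero]

theorem cube_injective {a b : F} (h : a ^ 3 = b ^ 3) : a = b :=
  haveI := Fact.mk Nat.prime_three
  frobenius_inj F 3 h

theorem scalar_of_cubic [Nontrivial R] {θ g g' : R} (hg : g' * g = 1) (h : θ * g = g * (θ + 1))
    (hc : ∃ a b c : F, θ ^ 3 + a • θ ^ 2 + b • θ + c • 1 = 0) : ∃ c : F, θ ^ 3 - θ = c • 1 := by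
  obtain ⟨a, b, c, hc⟩ := hc
  have h3 : (3 : F) = 0 := CharP.cast_eq_zero F 3
  have h1 : ∀ k, θ ^ k * g = g * (θ + 1) ^ k := fun k => (SemiconjBy.pow_right h.symm k).symm
  have h2 : (θ + 1) ^ 3 + a • (θ + 1) ^ 2 + b • (θ + 1) + c • 1 = 0 := by
    have := congrArg (fun x => g' * (x * g)) hc
    simpa only [add_mul, smul_mul_assoc, h1, h, one_mul, mul_add, mul_smul_comm, ← mul_assoc, hg,
      zero_mul, mul_zero, mul_one] using this
  rw [cube_add (three_eq_zero F) (Commute.one_right θ), (Commute.one_right θ).add_sq] at h2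
  have h4 : a • θ = (1 + a + b) • 1 := by
    simp only [mul_one, one_pow, two_mul] at h2
    linear_combination (norm := module) hc - h2 + h3 • a • θ
  have ha : a = 0 := by
    by_contra ha
    rw [(eq_inv_smul_iff₀ ha).2 h4] at h
    have : g = 0 := by simpa [mul_add] using h
    simp [this] at hg
  rw [ha, zero_smul, eq_comm, smul_eq_zero, or_iff_left one_ne_zero] at h4
  refine ⟨-c, ?_⟩
  rw [ha, show b = -1 by linear_combination h4] at hc
  linear_combination (norm := module) hc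

variable [StarRing R] {σ : F →+* F} (hσ : ∀ (b : F) (X : R), star (b • X) = σ b • star X)
include hσ

theorem exists_as_elem [Finite F] [Nontrivial R] {g x D : R} (hg : star g * g = 1)
    (hg' : g * star g = 1) (hD : D * g = g * (D + 1)) (hx : star x * x = 1) (hx' : x * star x = 1)
    (hxg : Commute x g) (hrel : ∀ θ, θ * g = g * (θ + 1) → θ * x = x * (θ + 1)) {s : F}
    (hs : x ^ 3 + star x ^ 3 = s • 1) (hs0 : s ≠ 0)
    (hc : ∀ θ : R, star θ = θ → ∃ a b c : F, θ ^ 3 + a • θ ^ 2 + b • θ + c • 1 = 0) {c₀ : F}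
    (hc₀ : σ c₀ = c₀) : ∃ θ : R, star θ = θ ∧ θ ^ 3 - θ = c₀ • 1 ∧ θ * g = g * (θ + 1) := by
  have h3 : (3 : R) = 0 := three_eq_zero F
  have hD' : star D * g = g * (star D + 1) := by
    have h1 := congrArg star hD
    simp only [star_mul, star_add, star_one] at h1
    calc star D * g = g * (star g * star D) * g := by rw [← mul_assoc, hg', one_mul]
      _ = _ := by rw [h1, mul_assoc, mul_assoc, hg, mul_one]
  obtain ⟨θ, h1, h2⟩ : ∃ θ : R, star θ = θ ∧ θ * g = g * (θ + 1) :=
    ⟨-(D + star D), by simp [add_comm], by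
      rw [neg_mul, add_mul, hD, hD']
      calc _ = g * (-(D + star D) + 1) - g * 3 := by noncomm_ring
        _ = _ := by rw [h3, mul_zero, sub_zero]⟩
  obtain ⟨c, hθ⟩ := scalar_of_cubic hg h2 (hc θ h1)
  have hfix : ∀ (X : R) (a : F), star X = X → X = a • 1 → σ a = a := fun X a h h' => by
    rw [h', hσ, star_one] at h
    exact smul_left_injective F one_ne_zero h
  have h4 := hfix _ c (by simp [h1]) hθ
  have h5 := hfix _ s (by simp [add_comm]) hs
  have := Fact.mk Nat.prime_three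
  obtain ⟨b, hb⟩ := (frobeniusEquiv F 3).surjective ((c₀ - c) / s)
  have hb' : b ^ 3 = (c₀ - c) / s := hb
  have h6 : σ b = b := cube_injective (by rw [← map_pow, hb', map_div₀, map_sub, hc₀, h4, h5])
  have h7 := hrel θ h2
  have h8 : θ * star x = star x * θ - star x := by
    calc θ * star x = star x * (x * (θ + 1)) * star x - star x := by
          rw [← mul_assoc, hx]; noncomm_ring
      _ = _ := by rw [← h7, mul_assoc, mul_assoc, hx', mul_one]
  have h9 : Commute x (star x) := hx'.trans hx.symm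
  have h10 : Commute (star x) g := by
    calc star x * g = star x * (g * x) * star x := by rw [mul_assoc, mul_assoc, hx', mul_one]
      _ = _ := by rw [← hxg.eq, ← mul_assoc, hx, one_mul]
  refine ⟨θ + b • (x + star x), by simp [hσ, h1, h6, add_comm], ?_, ?_⟩
  · rw [cube_shift h3 (z := b • (x - star x)), hθ, _root_.smul_pow, cube_add h3 h9, hs, smul_smul, hb',
      div_mul_cancel₀ _ hs0, ← add_smul, add_sub_cancel]
    · simp only [mul_smul_comm, smul_mul_assoc, mul_add, add_mul, h7, h8, mul_one]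
      module
    · simp only [mul_smul_comm, smul_mul_assoc, mul_sub, sub_mul, mul_add, h7, h8, mul_one]
      module
    · simp only [mul_smul_comm, smul_mul_assoc, mul_sub, sub_mul, mul_add, add_mul, hx, hx']
      module
  · simp only [mul_smul_comm, smul_mul_assoc, mul_add, add_mul, h2, hxg.eq, h10.eq]
    module

end Ring

variable {n : Type*} [Fintype n] [DecidableEq n]

/-- Trace duality. -/
theorem exists_deriv {g M Y : Matrix n n F} (hM : ∀ c, Commute c g → Commute c M)
    (hY : Y * M - M * Y = 1) : ∃ D, D * g = g * (D + 1) := by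
  let φ : Matrix n n F →ₗ[F] Matrix n n F := LinearMap.mulRight F g - LinearMap.mulLeft F g
  by_cases h : g ∈ LinearMap.range φ
  · obtain ⟨D, hD⟩ := h
    exact ⟨D, by rw [mul_add, mul_one]; exact eq_add_of_sub_eq' hD⟩
  obtain ⟨f, hf, hf'⟩ := Submodule.exists_dual_map_eq_bot_of_notMem h inferInstance
  have h2 : ∀ D, f (D * g - g * D) = 0 := fun D =>
    (Submodule.eq_bot_iff _).1 hf' _ (Submodule.mem_map_of_mem (LinearMap.mem_range_self φ D))
  obtain ⟨c, hc⟩ : ∃ c : Matrix n n F, ∀ X, f X = (c * X).trace := by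
    refine ⟨Matrix.of fun i j => f (single j i 1), fun X => ?_⟩
    conv_lhs => rw [matrix_eq_sum_single X]
    simp only [map_sum, trace, diag, mul_apply, of_apply]
    rw [Finset.sum_comm]
    refine Finset.sum_congr rfl fun i _ => Finset.sum_congr rfl fun j _ => ?_
    rw [mul_comm, ← smul_eq_mul, ← map_smul, smul_single, smul_eq_mul, mul_one]
  have h3 : Commute c g := (ext_iff_trace_mul_right.2 fun D => by
    have := h2 D
    rw [hc, mul_sub, trace_sub, sub_eq_zero, ← mul_assoc, trace_mul_comm, ← mul_assoc,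
      ← mul_assoc] at this
    exact this).symm
  have h4 := (hM (c * g) (h3.mul_left (Commute.refl g))).eq
  refine absurd ?_ hf
  rw [hc, ← mul_one (c * g), ← hY, mul_sub, trace_sub, ← mul_assoc, trace_mul_comm, ← mul_assoc,
    ← h4, ← mul_assoc, sub_self]

theorem exists_weyl {J Y M : Matrix n n F} (h : edM (1 + M) = edM J)
    (hY : Y * (J - 1) - (J - 1) * Y = 1) : ∃ Y, Y * M - M * Y = 1 := by
  obtain ⟨P, hP⟩ := isConj_iff_edM.2 h
  have h1 : J - 1 = P.val * M * P⁻¹.val := by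
    rw [Units.eq_mul_inv_iff_mul_eq, sub_mul, ← hP.eq, mul_add, mul_one, one_mul,
      add_sub_cancel_left]
  refine ⟨P⁻¹.val * Y * P.val, ?_⟩
  have := congrArg (fun X => P⁻¹.val * X * P.val) hY
  simpa [h1, mul_sub, sub_mul, mul_assoc] using this

theorem edM_of_cube {M : Matrix n n F} (h3 : M ^ 3 = 0) {k : ℕ} (hn : Fintype.card n = 3 * k)
    (hr : M.rank = 2 * k) : edM (1 + M) = Multiset.replicate k (X - 1, 3) := by
  have h0 : IsNilpotent (1 + M - 1) := ⟨3, by simpa using h3⟩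
  have h1 := jt_sum h0
  have h2 := card_jt_add_rank h0
  have h4 := (sub_one_pow_eq_zero_iff h0 3).1 (by simpa using h3)
  rw [add_sub_cancel_left] at h2
  have h5 : jt (1 + M) = Multiset.replicate k 3 := Multiset.eq_replicate.2 ⟨by omega, fun e he => by
    obtain ⟨t, ht⟩ := Multiset.exists_cons_of_mem he
    have := Multiset.sum_le_card_nsmul t 3 fun y hy => h4 y (ht ▸ Multiset.mem_cons_of_mem hy)
    have := h4 e he
    rw [ht, Multiset.sum_cons] at h1
    rw [ht, Multiset.card_cons] at h2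
    rw [smul_eq_mul] at *
    omega⟩
  rw [edM_eq_map_jt h0, h5, Multiset.map_replicate]

theorem rank_eq_two {M : Matrix n n F} (h3 : M ^ 3 = 0) (h2 : M ^ 2 ≠ 0) (hn : Fintype.card n = 3) :
    M.rank = 2 := by
  have h0 : IsNilpotent (1 + M - 1) := ⟨3, by simpa using h3⟩
  have h1 := jt_sum h0
  have h4 := card_jt_add_rank h0
  have h5 := (sub_one_pow_eq_zero_iff h0 2).not.1 (by simpa using h2)
  push Not at h5
  obtain ⟨e, he, h5⟩ := h5
  obtain ⟨t, ht⟩ := Multiset.exists_cons_of_mem he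
  have := Multiset.card_nsmul_le_sum (s := t) (a := 1)
    fun y hy => jt_pos _ (ht ▸ Multiset.mem_cons_of_mem hy)
  rw [ht, Multiset.sum_cons] at h1
  rw [ht, Multiset.card_cons, add_sub_cancel_left] at h4
  rw [smul_eq_mul] at this
  omega

variable [CharP F 3]

theorem weyl_three : (!![0, 1, 0; 0, 0, 2; 0, 0, 0] : Matrix (Fin 3) (Fin 3) F) *
    (jordanBlock 3 F - 1) - (jordanBlock 3 F - 1) * !![0, 1, 0; 0, 0, 2; 0, 0, 0] = 1 := by
  have h3 : (3 : F) = 0 := CharP.cast_eq_zero F 3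
  rw [show jordanBlock 3 F - 1 = !![0, 0, 0; 1, 0, 0; 0, 1, 0] by
    ext i j; fin_cases i <;> fin_cases j <;> simp [jordanBlock]]
  ext i j
  fin_cases i <;> fin_cases j <;> simp
  · norm_num
  · linear_combination -h3

/-- The Artin-Schreier polynomial. -/
noncomputable def asP (c : F) : F[X] := X ^ 3 - X - C c

omit [CharP F 3] in
theorem asP_monic (c : F) : (asP c).Monic := by unfold asP; monicity!

omit [CharP F 3] in
theorem asP_natDegree (c : F) : (asP c).natDegree = 3 := by unfold asP; compute_degree!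

omit [CharP F 3] in
theorem aeval_asP {R : Type*} [Ring R] [Algebra F R] {c : F} {θ : R} :
    aeval θ (asP c) = 0 ↔ θ ^ 3 - θ = c • 1 := by
  simp [asP, Algebra.algebraMap_eq_smul_one, sub_eq_zero]

theorem exists_asP [Finite F] {σ : F →+* F} (hσ : ∀ x, σ (σ x) = x) :
    ∃ c, σ c = c ∧ Irreducible (asP c) := by
  have h3 : (3 : F) = 0 := CharP.cast_eq_zero F 3
  let f : {x // σ x = x} → {x // σ x = x} := fun x => ⟨x.1 ^ 3 - x.1, by simp [x.2]⟩
  have h1 : ¬ Function.Surjective f := fun h => by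
    have := Finite.injective_iff_surjective.2 h (a₁ := ⟨0, map_zero σ⟩) (a₂ := ⟨1, map_one σ⟩)
      (by simp [f])
    simp at this
  obtain ⟨c, hc⟩ := not_forall.1 h1
  refine ⟨c.1, c.2, (irreducible_iff_roots_eq_zero_of_degree_le_three
    (by simp [asP_natDegree]) (asP_natDegree _).le).2 (Multiset.eq_zero_of_forall_notMem
      fun y hy => hc ⟨⟨-(y + σ y), by simp [hσ, add_comm]⟩, Subtype.ext ?_⟩)⟩
  have h2 : y ^ 3 - y - c.1 = 0 := by simpa [asP] using (mem_roots'.1 hy).2
  have h4 := congrArg σ h2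
  simp only [map_sub, map_pow, map_zero, c.2] at h4
  change (-(y + σ y)) ^ 3 - -(y + σ y) = c.1
  linear_combination -h2 - h4 - (y ^ 2 * σ y + y * σ y ^ 2 + c.1) * h3

omit [CharP F 3] in
theorem nrm_ne_top {G : Type*} [Group G] (ρ : G →* Matrix n n F) {θ : Matrix n n F} {c : F}
    (hc : Irreducible (asP c)) (hθ : θ ^ 3 - θ = c • 1) (hn : 3 ≤ Fintype.card n) {g : G}
    {v w : n → F} (hv : v ≠ 0) (hw : w ≠ 0) (hg : ρ g = 1 + vecMulVec v w) : nrm ρ θ ⊤ ≠ ⊤ :=
  fun e => by
    obtain ⟨k, -, h⟩ : g ∈ nrm ρ θ ⊤ := e ▸ Subgroup.mem_top g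
    rw [hg] at h
    obtain ⟨a, ha⟩ := exists_eigen_of_rank_one hw (Or.inr hn) h
    exact hv (eq_zero_of_eigen (eval_ne_zero_of_irred hc (by simp [asP_natDegree]))
      (aeval_asP.2 hθ) ha)

omit [CharP F 3] in
theorem cov_of_maybe {G α : Type*} [Group G] (N H : Subgroup G) [N.Normal] (K : α → Subgroup G)
    (S : α → Prop) (hN : N ≤ H) (hH : H ≠ ⊤) (hK : ∀ a, S a → N ≤ K a ∧ K a ≠ ⊤)
    (h : ∀ g : G, (∃ x, x * g * x⁻¹ ∈ H) ∨ ∃ a, S a ∧ ∀ b, S b → ∃ x, x * g * x⁻¹ ∈ K b) :
    Cov (G ⧸ N) := by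
  by_cases h1 : ∃ b, S b
  · obtain ⟨b, hb⟩ := h1
    exact cov_quot N H (K b) hN (hK b hb).1 hH (hK b hb).2 fun g => (h g).elim
      (fun h => h.imp fun _ => Or.inl) fun ⟨_, _, h⟩ => (h b hb).imp fun _ => Or.inr
  · exact cov_quot N H H hN hN hH hH fun g => (h g).elim
      (fun h => h.imp fun _ => Or.inl) fun ⟨a, ha, _⟩ => absurd ⟨a, ha⟩ h1

theorem cov_psu3 [Fintype F] {q : ℕ} (hF : Fintype.card F = q ^ 2) : Cov (PSU 3 F q) := by
  let := unitaryStar hF
  have h3 : (3 : Matrix (Fin 3) (Fin 3) F) = 0 := three_eq_zero F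
  have hσ : ∀ (b : F) (X : Matrix (Fin 3) (Fin 3) F), star (b • X) = conj hF b • star X :=
    fun b X => star_smul b X
  obtain ⟨c, hc, hc'⟩ := exists_asP (conj_conj hF)
  have hz : ∀ g ∈ Subgroup.center (SU 3 F q), ∃ a : F, suMat 3 F q g = a • 1 :=
    fun g hg => (mem_center_SU_iff hF (by omega)).1 hg
  have h1 : (uPQ hF 3).B (Pi.single 0 1) (Pi.single 0 1) = 1 :=
    (uPQ_single hF 0 0).trans (if_pos rfl)
  have hconj : ∀ θ θ' : Matrix (Fin 3) (Fin 3) F, star θ = θ ∧ θ ^ 3 - θ = c • 1 →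
      star θ' = θ' ∧ θ' ^ 3 - θ' = c • 1 →
      ∃ x : SU 3 F q, suMat 3 F q x * θ = θ' * suMat 3 F q x := by
    rintro θ θ' ⟨h1, h2⟩ ⟨h1', h2'⟩
    obtain ⟨P, hP⟩ := isConj_of_irred hc' (asP_monic c) (aeval_asP.2 h2) (aeval_asP.2 h2')
    obtain ⟨ω, hω, hδ, hω'⟩ := exists_omega_matrix (n := Fin 3) (exists_not_fixed hF)
    have h4 : θ * star (P : Matrix (Fin 3) (Fin 3) F) = star (P : Matrix (Fin 3) (Fin 3) F) * θ' := by
      simpa [h1, h1'] using congrArg star hP.eq
    obtain ⟨d, hd, hd'⟩ := exists_star_mul_self (h := star (P : Matrix (Fin 3) (Fin 3) F) * P) hω hδ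
      (by simp) (P.isUnit.star.mul P.isUnit) (hω' _)
    have h5 := hd' θ (hω' _) (by
      change _ * _ = _ * _
      rw [mul_assoc, hP.eq, ← mul_assoc, ← h4, mul_assoc])
    obtain ⟨Q, hQ, hQ'⟩ : ∃ Q : Matrix (Fin 3) (Fin 3) F, star Q * Q = 1 ∧ Q * θ = θ' * Q := by
      refine ⟨P.val * d⁻¹.val, ?_, ?_⟩
      · rw [star_mul, mul_assoc, ← mul_assoc (star P.val), ← hd, mul_assoc, Units.mul_inv, mul_one,
          ← star_mul, Units.mul_inv, star_one]
      · rw [mul_assoc, ← h5.units_inv_right.eq, ← mul_assoc, hP.eq, mul_assoc]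
    have h6 : star Q.det * Q.det = 1 := by rw [← det_star, ← det_mul, hQ, det_one]
    have := Fact.mk Nat.prime_three
    obtain ⟨μ, hμ⟩ := (frobeniusEquiv F 3).surjective (star Q.det)
    have hμ' : μ ^ 3 = star Q.det := hμ
    have h7 : star μ * μ = 1 := cube_injective (by
      rw [mul_pow, ← star_pow, hμ', star_star, mul_comm, h6, one_pow])
    let x : SpecialLinearGroup (Fin 3) F := ⟨μ • Q, by rw [det_smul, Fintype.card_fin, hμ', h6]⟩
    exact ⟨⟨x, (mem_SU_iff_star hF x).2 (by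
      change star (μ • Q) * (μ • Q) = 1
      rw [star_smul, smul_mul_smul_comm, h7, hQ, one_smul])⟩, by
        change (μ • Q) * θ = θ' * (μ • Q)
        rw [smul_mul_assoc, mul_smul_comm, hQ']⟩
  refine cov_of_maybe _ _ (fun θ => nrm (suMat 3 F q) θ ⊤)
    (fun θ => star θ = θ ∧ θ ^ 3 - θ = c • 1)
    (fun g hg => (hz g hg).elim fun a => mem_stab_of_scalar _)
    (stab_line_ne_top hF (i := 0) (j := 1) (by decide))
    (fun θ hθ => ⟨fun g hg => (hz g hg).elim fun a => mem_nrm_of_scalar _, ?_⟩) fun g => ?_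
  · obtain ⟨e, f, -, -, he, -, hef, -⟩ := (uPQ_isHerm hF 3).exists_hyperbolic_pair h1
      ((uPQ_single hF 1 1).trans (if_pos rfl)) ((uPQ_single hF 0 1).trans (if_neg (by decide)))
    have he0 : e ≠ 0 := by rintro rfl; simp at hef
    obtain ⟨d, hd, hd'⟩ := exists_trace_zero hF
    refine nrm_ne_top _ hc' hθ.2 (by simp) (g := transSU hF e he d hd') (v := d • e)
      (w := fun j => e j ^ q) (smul_ne_zero hd he0) (fun h => he0 (funext fun j =>
        (pow_q_eq_zero_iff hF).1 (congrFun h j))) ?_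
    rw [smul_vecMulVec]
    rfl
  have hg : star (suMat 3 F q g) * suMat 3 F q g = 1 := (mem_SU_iff_star hF g.1).1 g.2
  have hg' := mul_eq_one_comm.1 hg
  have hdet : (suMat 3 F q g).det = 1 := g.1.2
  suffices h : NI (uPQ hF 3) (toLin' (suMat 3 F q g)) ∨ ∃ θ, ∃ k : F,
      (star θ = θ ∧ θ ^ 3 - θ = c • 1) ∧ θ * suMat 3 F q g = suMat 3 F q g * (θ + k • 1) from
    h.imp (conj_of_ni hF h1 g) fun ⟨θ, k, h, h'⟩ => ⟨θ, h, fun θ' hθ' =>
      (hconj θ θ' h hθ').imp fun x hx => conj_mem_nrm _ trivial h' hx⟩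
  refine (su3_cases hF (su_unitary hF g) rfl).imp_right ?_
  generalize suMat 3 F q g = A at hg hg' hdet
  rintro (h | ⟨a, h, h'⟩)
  · obtain ⟨f, hf⟩ := exists_root_aeval A hc' (by rwa [asP_natDegree])
    rw [aeval_asP] at hf
    have h4 : Commute (aeval A f) A := (aeval_commute (Commute.refl A) f).symm
    have h5 : star (aeval A f) * A = A * star (aeval A f) := by
      have := congrArg star (aeval_commute (hg.trans hg'.symm) f).eq
      simpa only [star_mul, star_star] using this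
    have h6 := aeval_commute h5 f
    generalize aeval A f = θ at hf h4 h5 h6
    refine ⟨-(θ + star θ), 0, ⟨by simp [add_comm], ?_⟩, by simpa using (h4.add_left h5).neg_left.eq⟩
    have h7 := congrArg star hf
    rw [star_sub, star_pow, hσ, hc, star_one] at h7
    rw [Odd.neg_pow (by decide), cube_add h3 h6.symm]
    have h8 : (3 : F) = 0 := CharP.cast_eq_zero F 3
    linear_combination (norm := module) -hf - h7 - h8 • c • (1 : Matrix (Fin 3) (Fin 3) F)
  · have h4 : A ^ 3 = a ^ 3 • 1 := by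
      have := cube_add h3 (x := A - a • 1) (y := a • 1) ((Commute.one_right _).smul_right _)
      rwa [sub_add_cancel, h, zero_add, _root_.smul_pow, one_pow] at this
    have h5 : a = 1 := cube_injective (cube_injective (by
      have := congrArg det h4
      rw [det_pow, hdet, det_smul, det_one, Fintype.card_fin] at this
      simpa using this.symm))
    subst h5
    rw [one_smul] at h h'
    rw [one_pow, one_smul] at h4
    obtain ⟨Y, hY⟩ := exists_weyl ((edM_of_cube h (k := 1) rfl (rank_eq_two h h' rfl)).trans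
      (edM_jordanBlock (by omega)).symm) weyl_three
    obtain ⟨D, hD⟩ := exists_deriv (g := A) (fun c hc => hc.sub_right (Commute.one_right c)) hY
    obtain ⟨θ, h6, h7, h8⟩ := exists_as_elem hσ hg hg' hD hg hg' (Commute.refl A) (fun _ h => h)
      (s := 2) (by rw [← star_pow, h4, star_one, two_smul])
      (fun h => one_ne_zero (α := F) (by
        linear_combination (CharP.cast_eq_zero F 3 : (3 : F) = 0) - h))
      (fun θ _ => cubic_of_monic θ.charpoly_monic (by simp) (aeval_self_charpoly θ)) hc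
    exact ⟨θ, 1, ⟨h6, h7⟩, by rwa [one_smul]⟩

end CfsgLib.Cov2
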