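import Cfsg.Agent.Lib.Cov2.Basic
import Cfsg.Agent.Lib.MatConj.Unitary
import Cfsg.Agent.Lib.Forms.SUGen

/-! Coverings by two subgroups: invariant subspaces of unitary elements, and `PSU_4`. -/

set_option autoImplicit false

namespace CfsgLib.Cov2

open Polynomial Module Matrix CfsgLib.MatConj CfsgLib.Forms CfsgLib.Unitary Cfsg

variable {F : Type*} [Field F]

section Abstract

variable {V : Type*} [AddCommGroup V] [Module F V]

theorem exists_quot_eigen {T : End F V} {f : F[X]} (hf : f.Splits) (hm : f.Monic)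
    (hT : aeval T f = 0) {U W : Submodule F V} (hW : ∀ w ∈ W, T w ∈ W) {w : V} (hw : w ∈ W)
    (hwU : w ∉ U) : ∃ w ∈ W, w ∉ U ∧ ∃ μ : F, T w - μ • w ∈ U := by
  have h : aeval T (f.roots.map (X - C ·)).prod w ∈ U := by
    rw [← hf.eq_prod_roots_of_monic hm, hT]; exact U.zero_mem
  generalize f.roots = s at h
  induction s using Multiset.induction_on generalizing w with
  | empty => exact absurd (by simpa using h) hwU
  | cons a s ih =>
    by_cases h1 : T w - a • w ∈ U
    · exact ⟨w, hw, hwU, a, h1⟩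
    · refine ih (W.sub_mem (hW w hw) (W.smul_mem a hw)) h1 ?_
      rw [Multiset.map_cons, Multiset.prod_cons, mul_comm, map_mul] at h
      simpa [Algebra.algebraMap_eq_smul_one] using h

variable {σ : F →+* F} (P : PQ σ V) (g : End F V)

/-- There is a non-isotropic eigenvector. -/
def NI : Prop := ∃ (v : V) (a : F), P.B v v ≠ 0 ∧ g v = a • v

/-- There is an invariant totally singular plane. -/
def TP : Prop := ∃ W : Submodule F V, P.TS W ∧ finrank F W = 2 ∧ ∀ w ∈ W, g w ∈ W

variable {P g} (hH : P.IsHerm)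
include hH

theorem ts_pair {u w : V} (huu : P.B u u = 0) (huw : P.B u w = 0) (hww : P.B w w = 0) :
    P.TS (Submodule.span F {u, w}) := by
  have hwu := P.B_eq_zero_comm.1 huw
  refine P.ts_span ?_ ?_
  · rintro _ (rfl | rfl) <;> exact (hH.sing_iff _).2 (by assumption)
  · rintro _ (rfl | rfl) _ (rfl | rfl) <;> assumption

omit hH in
theorem finrank_pair {u w : V} (hu : u ≠ 0) (hw : w ∉ Submodule.span F {u}) :
    finrank F (Submodule.span F {u, w}) = 2 := by
  have : LinearIndependent F ![u, w] := (LinearIndependent.pair_iff' hu).2 fun a h =>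
    hw (Submodule.mem_span_singleton.2 ⟨a, h⟩)
  have h := finrank_span_eq_card this
  rwa [Matrix.range_cons, Matrix.range_cons, Matrix.range_empty, Set.union_empty,
    Set.singleton_union] at h

theorem tp_of_pair {u w : V} {a μ c : F} (hu : u ≠ 0) (hw : w ∉ Submodule.span F {u})
    (huu : P.B u u = 0) (huw : P.B u w = 0) (hww : P.B w w = 0) (hgu : g u = a • u)
    (hgw : g w = μ • w + c • u) : TP P g := by
  refine ⟨_, ts_pair hH huu huw hww, finrank_pair hu hw, fun x hx => ?_⟩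
  obtain ⟨s, t, rfl⟩ := Submodule.mem_span_pair.1 hx
  refine Submodule.mem_span_pair.2 ⟨s * a + t * c, t * μ, ?_⟩
  simp only [map_add, map_smul, hgu, hgw]
  module

variable [FiniteDimensional F V] {f : F[X]} (hf : f.Splits) (hm : f.Monic) (hT : aeval g f = 0)
include hf hm hT

omit [FiniteDimensional F V] in
theorem herm_step {u : V} {a : F} (hu : u ≠ 0) (huu : P.B u u = 0) (hgu : g u = a • u)
    {W : Submodule F V} (hW : ∀ w ∈ W, g w ∈ W) (hWu : ∀ w ∈ W, P.B u w = 0)
    (h2 : 2 ≤ finrank F W) :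
    NI P g ∨ TP P g ∨ ∃ w ∈ W, P.B w w ≠ 0 ∧ ∃ c : F, g w = a • w + c • u := by
  obtain ⟨w, hw, hwu⟩ : ∃ w ∈ W, w ∉ Submodule.span F {u} := by
    by_contra h
    push Not at h
    have := Submodule.finrank_mono (show W ≤ _ from h)
    rw [finrank_span_singleton hu] at this
    omega
  obtain ⟨w, hw, hwu, μ, h⟩ := exists_quot_eigen hf hm hT hW hw hwu
  obtain ⟨c, hc⟩ := Submodule.mem_span_singleton.1 h
  have hgw : g w = μ • w + c • u := by rw [hc]; abel
  by_cases hww : P.B w w = 0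
  · exact Or.inr (Or.inl (tp_of_pair hH hu hwu huu (hWu w hw) hww hgu hgw))
  by_cases hμ : μ = a
  · exact Or.inr (Or.inr ⟨w, hw, hww, c, hμ ▸ hgw⟩)
  refine Or.inl ⟨w + (c / (μ - a)) • u, μ, ?_, ?_⟩
  · simpa [P.B_add_left, P.B_add_right, P.B_smul_left, P.B_smul_right, huu, hWu w hw,
      P.B_eq_zero_comm.1 (hWu w hw)] using hww
  · have := sub_ne_zero.2 hμ
    rw [map_add, map_smul, hgu, hgw]
    match_scalars
    · ring
    · field_simp; ring

variable (hP : P.Nondeg) (hg : ∀ x y, P.B (g x) (g y) = P.B x y)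
include hP hg

theorem herm_split [Nontrivial V] (h3 : 3 ≤ finrank F V) : NI P g ∨ TP P g ∨
    ∃ (u w : V) (a c : F), u ≠ 0 ∧ a ≠ 0 ∧ P.B u u = 0 ∧ P.B u w = 0 ∧ P.B w w ≠ 0 ∧
      g u = a • u ∧ g w = a • w + c • u ∧ ∀ x, P.B u x = 0 → P.B u (g x) = 0 := by
  obtain ⟨v, hv⟩ := exists_ne (0 : V)
  obtain ⟨u, -, hu, a, h⟩ := exists_quot_eigen hf hm hT (U := ⊥) (W := ⊤) (fun _ _ => trivial)
    (w := v) trivial hv
  have hgu : g u = a • u := sub_eq_zero.1 h
  by_cases huu : P.B u u = 0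
  swap
  · exact Or.inl ⟨u, a, huu, hgu⟩
  have ha : a ≠ 0 := fun h0 => hu (hP u fun y => by rw [← hg, hgu, h0]; simp)
  have h1 : ∀ x, P.B u x = 0 → P.B u (g x) = 0 := fun x hx => by
    have := hg u x
    rw [hgu, P.B_smul_left, hx] at this
    exact (mul_eq_zero.1 this).resolve_left ((map_ne_zero σ).2 ha)
  have h4 := P.finrank_perp hP (Submodule.span F {u})
  rw [finrank_span_singleton hu] at h4
  rcases herm_step hH hf hm hT hu huu hgu (W := P.perp (Submodule.span F {u}))
    (fun w hw => P.mem_perp_span_singleton.2 (h1 w (P.mem_perp_span_singleton.1 hw)))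
    (fun w hw => P.mem_perp_span_singleton.1 hw) (by omega) with h | h | ⟨w, hw, hww, c, hc⟩
  · exact Or.inl h
  · exact Or.inr (Or.inl h)
  · exact Or.inr (Or.inr ⟨u, w, a, c, hu, ha, huu, P.mem_perp_span_singleton.1 hw, hww, hgu, hc, h1⟩)

theorem herm_split4 (h4 : finrank F V = 4) : NI P g ∨ TP P g := by
  have : Nontrivial V := Module.nontrivial_of_finrank_pos (R := F) (by omega)
  rcases herm_split hH hf hm hT hP hg (by omega) with
    h | h | ⟨u, w, a, c, hu, ha, huu, huw, hww, hgu, hgw, h1⟩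
  · exact Or.inl h
  · exact Or.inr h
  have h5 := P.finrank_perp hP (Submodule.span F {u, w})
  have h6 : finrank F (Submodule.span F ({u, w} : Set V)) = 2 := finrank_pair hu fun h => by
    obtain ⟨t, rfl⟩ := Submodule.mem_span_singleton.1 h
    simp [huu] at hww
  have h7 : ∀ x, x ∈ P.perp (Submodule.span F {u, w}) ↔ P.B u x = 0 ∧ P.B w x = 0 := fun x => by
    simp [P.mem_perp_span]
  rcases herm_step hH hf hm hT hu huu hgu (W := P.perp (Submodule.span F {u, w}))
    (fun x hx => by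
      obtain ⟨h8, h9⟩ := (h7 x).1 hx
      refine (h7 _).2 ⟨h1 x h8, ?_⟩
      have := hg w x
      rw [hgw, P.B_add_left, P.B_smul_left, P.B_smul_left, h1 x h8, h9, mul_zero, add_zero] at this
      exact (mul_eq_zero.1 this).resolve_left ((map_ne_zero σ).2 ha))
    (fun x hx => ((h7 x).1 hx).1) (by omega) with h | h | ⟨w', hw', hww', c', hc'⟩
  · exact Or.inl h
  · exact Or.inr h
  obtain ⟨h8, h9⟩ := (h7 w').1 hw'
  obtain ⟨t, ht⟩ := hH.exists_smul_norm_eq hww' (c := -P.B w w) (by rw [map_neg, hH.conj])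
  refine Or.inr (tp_of_pair hH (w := w + t • w') (μ := a) (c := c + t * c') hu (fun h => ?_) huu
    (by simp [P.B_add_right, P.B_smul_right, huw, h8]) ?_ hgu ?_)
  · obtain ⟨s, hs⟩ := Submodule.mem_span_singleton.1 h
    have := congrArg (P.B w) hs
    simp [P.B_add_right, P.B_smul_right, P.B_eq_zero_comm.1 huw, h9] at this
    exact hww this.symm
  · rw [P.B_add_left, P.B_add_right, P.B_add_right, ht]
    simp [h9, P.B_eq_zero_comm.1 h9]
  · rw [map_add, map_smul, hgw, hc']
    module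

theorem herm_split3 (h3 : finrank F V = 3) :
    NI P g ∨ ∃ a : F, (g - a • 1) ^ 3 = 0 ∧ (g - a • 1) ^ 2 ≠ 0 := by
  have : Nontrivial V := Module.nontrivial_of_finrank_pos (R := F) (by omega)
  have hts : ∀ W : Submodule F V, P.TS W → finrank F W ≤ 1 := fun W h => by
    have := h.two_mul_finrank_le hP
    omega
  rcases herm_split hH hf hm hT hP hg (by omega) with
    h | ⟨W, h, h', -⟩ | ⟨u, w, a, c, hu, ha, huu, huw, hww, hgu, hgw, h1⟩
  · exact Or.inl h
  · have := hts W h
    omega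
  by_cases h2 : (g - a • 1) ^ 2 = 0
  · have h4 := LinearMap.finrank_range_add_finrank_ker (g - a • 1)
    have h5 := Submodule.finrank_mono (LinearMap.range_le_ker_iff.2
      (show (g - a • 1) ∘ₗ (g - a • 1) = 0 by rw [← h2, sq]; rfl))
    by_cases h6 : ∃ x ∈ LinearMap.ker (g - a • 1), ∃ y ∈ LinearMap.ker (g - a • 1), P.B x y ≠ 0
    · obtain ⟨x, hx, y, hy, hxy⟩ := h6
      obtain ⟨z, hz, hzz⟩ := hH.exists_nonisotropic _ hx hy hxy
      exact Or.inl ⟨z, a, hzz, by simpa [sub_eq_zero] using hz⟩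
    · push Not at h6
      have := hts _ ⟨fun x hx => (hH.sing_iff x).2 (h6 x hx x hx), fun x hx y hy => h6 y hy x hx⟩
      omega
  refine Or.inr ⟨a, LinearMap.ext fun x => ?_, h2⟩
  have hwu := P.B_eq_zero_comm.1 huw
  have h4 : σ a * a = 1 := by
    have := hg w w
    simp only [hgw, P.B_add_left, P.B_add_right, P.B_smul_left, P.B_smul_right, huu, huw,
      hwu] at this
    exact mul_right_cancel₀ hww (by linear_combination this)
  have h5 : g x - a • x ∈ P.perp (Submodule.span F {u}) := P.mem_perp_span_singleton.2 (by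
    have := hg u x
    rw [hgu, P.B_smul_left] at this
    rw [P.B_sub_right, P.B_smul_right]
    linear_combination a * this - P.B u (g x) * h4)
  have h6 := P.finrank_perp hP (Submodule.span F {u})
  rw [finrank_span_singleton hu] at h6
  rw [← Submodule.eq_of_le_of_finrank_eq (S₁ := Submodule.span F {u, w})
    (S₂ := P.perp (Submodule.span F {u})) (Submodule.span_le.2 (by
    rintro _ (rfl | rfl) <;> exact P.mem_perp_span_singleton.2 (by assumption))) (by
      rw [finrank_pair hu fun h => by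
        obtain ⟨t, rfl⟩ := Submodule.mem_span_singleton.1 h
        simp [huu] at hww]
      omega)] at h5
  obtain ⟨s, t, h7⟩ := Submodule.mem_span_pair.1 h5
  have h8 : (g - a • 1) x = s • u + t • w := by simp [h7]
  have h9 : (g - a • 1) u = 0 := by simp [hgu]
  have h10 : (g - a • 1) w = c • u := by simp [hgw]
  generalize g - a • 1 = N at h8 h9 h10
  simp [pow_succ, h8, h9, h10]

end Abstract

variable [Fintype F] {q : ℕ} (hF : Fintype.card F = q ^ 2)

theorem odd_of_tilde_eq {p : F[X]} (hp : Irreducible p) (h0 : p.coeff 0 ≠ 0)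
    (h : tilde (conj hF) p = p) : Odd p.natDegree := by
  have := Fact.mk hp
  have := finite_adjoinRoot hp.ne_zero
  have : Finite (AdjoinRoot p) := Module.finite_of_finite F
  obtain ⟨l, k, hl, hc, -, hq⟩ := exists_char hF
  have := Fact.mk hl
  have : CharP (AdjoinRoot p) l := charP_of_injective_algebraMap' F l
  have hr : AdjoinRoot.root p ≠ 0 := fun e => h0 (X_dvd_iff.1 ((irreducible_X.associated_of_dvd hp
    (by
      have : p ∣ X := AdjoinRoot.mk_eq_zero.1 e
      exact (hp.associated_of_dvd irreducible_X this).symm.dvd)).dvd))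
  have h1 : eval₂ ((AdjoinRoot.of p).comp (conj hF)) (AdjoinRoot.root p)⁻¹ p = 0 := by
    have h2 : aeval (AdjoinRoot.root p) (tilde (conj hF) p) = 0 := by
      rw [h, AdjoinRoot.aeval_eq, AdjoinRoot.mk_self]
    rw [tilde, map_mul, aeval_C, mul_eq_zero, map_eq_zero, inv_eq_zero, map_eq_zero, reverse,
      aeval_reflect (mul_inv_cancel₀ hr) le_rfl] at h2
    rw [← eval₂_map]
    exact (mul_eq_zero.1 (h2.resolve_left h0)).resolve_left (pow_ne_zero _ hr)
  let τ := AdjoinRoot.lift _ _ h1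
  have hτ : ∀ x, τ (τ x) = x := fun x => DFunLike.congr_fun (AdjoinRoot.ringHom_ext
    (f := τ.comp τ) (g := RingHom.id _) (RingHom.ext fun a => by simp [τ, conj_conj])
    (by simp [τ])) x
  let ψ : AdjoinRoot p →ₐ[F] AdjoinRoot p :=
    { (iterateFrobenius (AdjoinRoot p) l k).comp τ with
      commutes' := fun a => by
        simp [τ, iterateFrobenius_def, ← hq, ← map_pow, conj_apply, pow_q_pow_q hF] }
  have hψ : ψ * ψ = FiniteField.frobeniusAlgHom F (AdjoinRoot p) := AlgHom.ext fun x => by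
    change τ (τ x ^ l ^ k) ^ l ^ k = x ^ Fintype.card F
    rw [map_pow, hτ, hF, ← pow_mul, sq, hq]
  obtain ⟨j, hj⟩ := (FiniteField.bijective_frobeniusAlgHom_pow F (AdjoinRoot p)).2 ψ
  have h2 := FiniteField.orderOf_frobeniusAlgHom F (AdjoinRoot p)
  rw [← hj, ← pow_add] at hψ
  have h3 := (IsOfFinOrder.pow_eq_pow_iff_modEq (orderOf_pos_iff.1 (h2 ▸ finrank_pos))).1
    (hψ.trans (pow_one _).symm)
  generalize j.1 = i at h3
  rw [h2, finrank_adjoinRoot] at h3
  by_contra h4
  have := (h3.of_dvd (Nat.not_odd_iff_even.1 h4).two_dvd)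
  unfold Nat.ModEq at this
  omega

variable {n : ℕ}

theorem uPQ_adj (X : Matrix (Fin n) (Fin n) F) (u v : Fin n → F) :
    (uPQ hF n).B (X *ᵥ u) v = (uPQ hF n).B u ((X.map (conj hF))ᵀ *ᵥ v) := by
  simp only [uPQ_B, herm_def, mulVec, dotProduct, sum_pow_q hF, Finset.mul_sum, Finset.sum_mul,
    transpose_apply, map_apply, conj_apply, mul_pow]
  rw [Finset.sum_comm]
  exact Finset.sum_congr rfl fun _ _ => Finset.sum_congr rfl fun _ _ => by ring

variable {A : Matrix (Fin n) (Fin n) F} (hA : (A.map (conj hF))ᵀ * A = 1)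
include hA

theorem uPQ_iso (u v : Fin n → F) : (uPQ hF n).B (A *ᵥ u) (A *ᵥ v) = (uPQ hF n).B u v := by
  rw [uPQ_adj, mulVec_mulVec, hA, one_mulVec]

theorem tilde_perp (f : F[X]) {x : Fin n → F} (hx : aeval A f *ᵥ x = 0) (y : Fin n → F) :
    (uPQ hF n).B (aeval A (tilde (conj hF) f) *ᵥ y) x = 0 := by
  have h1 := mul_eq_one_comm.1 hA
  have h2 : ∀ X : Matrix (Fin n) (Fin n) F, ((X.map (conj hF)).map (conj hF)) = X := fun X => by
    ext; simp [conj_conj]
  have h3 : Commute ((A.map (conj hF))ᵀ ^ f.natDegree) (aeval A f) :=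
    aeval_commute (Commute.pow_left (hA.trans h1.symm) _) f
  rw [aeval_tilde (A := Aᵀ) h1, smul_mulVec, PQ.B_smul_left, ← mulVec_mulVec, uPQ_adj, uPQ_adj, h2,
    aeval_transpose, transpose_transpose, Matrix.map_pow, transpose_pow, mulVec_mulVec, ← h3.eq,
    ← mulVec_mulVec, hx]
  simp

theorem tilde_mem_edM {x : F[X] × ℕ} (hx : x ∈ edM A) : (tilde (conj hF) x.1, x.2) ∈ edM A := by
  rw [edM_tilde (conj_conj hF) (A := Aᵀ) (mul_eq_one_comm.1 hA), edM_transpose]
  exact Multiset.mem_map_of_mem _ hx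

theorem coeff_ne_zero_of_mem {x : F[X] × ℕ} (hx : x ∈ edM A) : x.1.coeff 0 ≠ 0 :=
  edM_coeff_zero_ne_zero (IsUnit.of_mul_eq_one_right _ hA) hx

theorem ni_of_factor {p r : F[X]} (h : edM A = {(p, 1), (r, 1)}) (hp : 2 ≤ p.natDegree)
    (hr : r.natDegree = 1) : NI (uPQ hF n) (toLin' A) := by
  have hp' : (p, 1) ∈ edM A := by simp [h]
  obtain ⟨a, ha, u, hu, hAu⟩ := exists_eigen_of_natDegree_one (A := A) (x := (r, 1)) (by simp [h]) hr
  obtain ⟨h1, h2, -⟩ := edM_valid A _ hp'
  have h0 := coeff_ne_zero_of_mem hF hA hp'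
  have h3 : aeval A ((X - C a) * p) = 0 := (aeval_eq_zero_iff_edM _ _).2 fun y hy => by
    rw [h, show r = X - C a from ha] at hy
    rcases Multiset.mem_cons.1 hy with rfl | hy
    · simp
    · simp [Multiset.mem_singleton.1 hy]
  have h4 : ∀ x, A *ᵥ aeval A p *ᵥ x = a • aeval A p *ᵥ x := fun x => by
    have := congrArg (· *ᵥ x) h3
    simpa [← mulVec_mulVec, sub_mulVec, Algebra.algebraMap_eq_smul_one, smul_mulVec,
      sub_eq_zero] using this
  have h5 := eval_ne_zero_of_irred h1 hp a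
  have h6 := eval_ne_zero_of_irred (irreducible_tilde (conj_conj hF) h1 h2 h0)
    (by rwa [natDegree_tilde _ h0]) a
  obtain ⟨x, hx⟩ : ∃ x, (uPQ hF n).B u x ≠ 0 := by
    by_contra h7
    push Not at h7
    exact hu (uPQ_nondeg hF n u h7)
  have h7 := tilde_perp hF hA p (x := p.eval a • x - aeval A p *ᵥ x)
    (by rw [mulVec_sub, mulVec_smul, aeval_mulVec_eigen (h4 x), sub_self]) u
  rw [aeval_mulVec_eigen hAu, PQ.B_smul_left, mul_eq_zero, map_eq_zero, PQ.B_sub_right,
    PQ.B_smul_right] at h7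
  obtain ⟨z, hz, hzz⟩ := (uPQ_isHerm hF n).exists_nonisotropic
    (LinearMap.ker (toLin' A - a • 1)) (x := u) (y := aeval A p *ᵥ x)
    (by simp [hAu]) (by rw [LinearMap.mem_ker, LinearMap.sub_apply, toLin'_apply, h4]; simp)
    (by rw [← sub_eq_zero.1 (h7.resolve_left h6)]; exact mul_ne_zero h5 hx)
  exact ⟨z, a, hzz, by simpa [sub_eq_zero] using hz⟩

theorem tp_of_factor {x : F[X] × ℕ} (hx : x ∈ edM A) (h2 : x.1.natDegree = 2) :
    TP (uPQ hF n) (toLin' A) := by
  obtain ⟨h1, hm, -⟩ := edM_valid A _ hx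
  have h0 := coeff_ne_zero_of_mem hF hA hx
  obtain ⟨s, t, hst⟩ : IsCoprime x.1 (tilde (conj hF) x.1) :=
    h1.coprime_iff_not_dvd.2 fun hd => by
      have := odd_of_tilde_eq hF h1 h0 (eq_of_monic_of_associated hm (monic_tilde _ h0)
        (h1.associated_of_dvd (irreducible_tilde (conj_conj hF) h1 hm h0) hd)).symm
      rw [h2] at this
      exact absurd this (by decide)
  have h3 : ∀ u v, aeval A x.1 *ᵥ u = 0 → aeval A x.1 *ᵥ v = 0 → (uPQ hF n).B u v = 0 :=
    fun u v hu hv => by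
      have := congrArg (fun f => aeval A f *ᵥ u) hst
      simp only [map_add, mul_comm t, map_mul, add_mulVec, ← mulVec_mulVec, hu, mulVec_zero,
        zero_add, map_one, one_mulVec] at this
      rw [← this, tilde_perp hF hA _ hv]
  obtain ⟨v, hv0, hv⟩ := exists_ker_of_mem_edM hx
  have hv' : aeval A x.1 *ᵥ A *ᵥ v = 0 := by
    rw [mulVec_mulVec, ← (aeval_commute (Commute.refl A) _).eq, ← mulVec_mulVec, hv, mulVec_zero]
  refine ⟨Submodule.span F {v, A *ᵥ v}, ts_pair (uPQ_isHerm hF n) (h3 _ _ hv hv) (h3 _ _ hv hv')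
    (h3 _ _ hv' hv'), finrank_pair hv0 fun h => ?_, fun w hw => ?_⟩
  · obtain ⟨a, ha⟩ := Submodule.mem_span_singleton.1 h
    rw [aeval_mulVec_eigen ha.symm] at hv
    exact smul_ne_zero (eval_ne_zero_of_irred h1 h2.ge a) hv0 hv
  · obtain ⟨a, b, rfl⟩ := Submodule.mem_span_pair.1 hw
    rw [hm.as_sum, h2] at hv
    simp only [Finset.sum_range_succ, Finset.range_zero, Finset.sum_empty, map_add, map_mul,
      aeval_C, aeval_X, pow_zero, pow_one, zero_add, sq, Algebra.algebraMap_eq_smul_one,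
      smul_mul_assoc, one_mul, add_mulVec, smul_mulVec, map_one, one_mulVec, ← mulVec_mulVec] at hv
    refine Submodule.mem_span_pair.2 ⟨-(b * x.1.coeff 0), a - b * x.1.coeff 1, ?_⟩
    rw [toLin'_apply, mulVec_add, mulVec_smul, mulVec_smul, eq_neg_of_add_eq_zero_left hv]
    module

omit hA [Fintype F] in
theorem splits_charpoly (h : ∀ x ∈ edM A, x.1.natDegree = 1) : A.charpoly.Splits := by
  rw [charpoly_eq_prod_edM]
  refine Splits.multisetProd fun f hf => ?_
  obtain ⟨x, hx, rfl⟩ := Multiset.mem_map.1 hf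
  exact (Splits.of_natDegree_eq_one (h x hx)).pow _

theorem ni_of_rest {x : F[X] × ℕ} (hx : x ∈ edM A) (h2 : 2 ≤ x.1.natDegree)
    (hn : n = x.1.natDegree + 1) : NI (uPQ hF n) (toLin' A) := by
  obtain ⟨t, ht, h⟩ := edM_split hx
  obtain ⟨-, -, h3⟩ := edM_valid A _ hx
  rw [Fintype.card_fin] at h
  have h4 : x.2 = 1 := by
    by_contra h4
    have := Nat.mul_le_mul_left x.1.natDegree (show 2 ≤ x.2 by omega)
    omega
  rw [h4] at h
  obtain ⟨r, rfl, hr⟩ := sum_eq_one (t := t)
    (fun y hy => edM_valid _ y (ht ▸ Multiset.mem_cons_of_mem hy)) (by omega)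
  exact ni_of_factor hF hA (p := x.1) (by rw [ht, ← h4]; rfl) h2 hr

omit hA [Fintype F] in
theorem edM_eq_singleton {x : F[X] × ℕ} (hx : x ∈ edM A) (hn : n = x.1.natDegree) :
    edM A = {x} := by
  obtain ⟨t, ht, h⟩ := edM_split hx
  obtain ⟨-, -, h3⟩ := edM_valid A _ hx
  rw [Fintype.card_fin] at h
  have := Nat.le_mul_of_pos_right x.1.natDegree h3
  rw [ht, sum_eq_zero (t := t) (fun y hy => edM_valid _ y (ht ▸ Multiset.mem_cons_of_mem hy))
    (by omega)]
  rfl

omit hA [Fintype F] in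
theorem natDegree_le_of_mem {x : F[X] × ℕ} (hx : x ∈ edM A) : x.1.natDegree ≤ n := by
  obtain ⟨t, -, h⟩ := edM_split hx
  have := Nat.le_mul_of_pos_right x.1.natDegree (edM_valid A _ hx).2.2
  rw [Fintype.card_fin] at h
  omega

theorem su4_cases (hn : n = 4) : NI (uPQ hF n) (toLin' A) ∨ TP (uPQ hF n) (toLin' A) := by
  by_cases h : ∀ x ∈ edM A, x.1.natDegree = 1
  · exact herm_split4 (uPQ_isHerm hF n) (splits_charpoly h) A.charpoly_monic
      (by rw [aeval_toLin', aeval_self_charpoly, map_zero]) (uPQ_nondeg hF n) (uPQ_iso hF hA)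
      (by simpa using hn)
  push Not at h
  obtain ⟨x, hx, h1⟩ := h
  have h2 := natDegree_le_of_mem hx
  have h3 := (edM_valid A _ hx).1.natDegree_pos
  obtain h4 | h4 | h4 : x.1.natDegree = 2 ∨ x.1.natDegree = 3 ∨ x.1.natDegree = 4 := by omega
  · exact Or.inr (tp_of_factor hF hA hx h4)
  · exact Or.inl (ni_of_rest hF hA hx (by omega) (by omega))
  · have h5 := tilde_mem_edM hF hA hx
    rw [edM_eq_singleton hx (by omega), Multiset.mem_singleton] at h5
    have := odd_of_tilde_eq hF (edM_valid A _ hx).1 (coeff_ne_zero_of_mem hF hA hx)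
      (congrArg Prod.fst h5)
    rw [h4] at this
    exact absurd this (by decide)

theorem su3_cases (hn : n = 3) : NI (uPQ hF n) (toLin' A) ∨ (∀ x ∈ edM A, 3 ∣ x.1.natDegree) ∨
    ∃ a : F, (A - a • 1) ^ 3 = 0 ∧ (A - a • 1) ^ 2 ≠ 0 := by
  by_cases h : ∀ x ∈ edM A, x.1.natDegree = 1
  · refine (herm_split3 (uPQ_isHerm hF n) (splits_charpoly h) A.charpoly_monic
      (by rw [aeval_toLin', aeval_self_charpoly, map_zero]) (uPQ_nondeg hF n) (uPQ_iso hF hA)
      (by simpa using hn)).imp_right fun ⟨a, h1, h2⟩ => Or.inr ⟨a, ?_, fun h3 => h2 ?_⟩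
    · apply toLinAlgEquiv'.injective
      simp only [map_pow, map_sub, map_smul, map_one, map_zero]
      exact h1
    · have := congrArg toLinAlgEquiv' h3
      simp only [map_pow, map_sub, map_smul, map_one, map_zero] at this
      exact this
  push Not at h
  obtain ⟨x, hx, h1⟩ := h
  have h2 := natDegree_le_of_mem hx
  have h3 := (edM_valid A _ hx).1.natDegree_pos
  obtain h4 | h4 : x.1.natDegree = 2 ∨ x.1.natDegree = 3 := by omega
  · exact Or.inl (ni_of_rest hF hA hx (by omega) (by omega))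
  · refine Or.inr (Or.inl fun y hy => ?_)
    rw [edM_eq_singleton hx (by omega), Multiset.mem_singleton] at hy
    rw [hy, h4]

omit hA

theorem su_unitary (g : SU n F q) : ((suMat n F q g).map (conj hF))ᵀ * suMat n F q g = 1 := by
  have := congrArg transpose ((mem_SU_iff hF g.1).1 g.2)
  rw [transpose_mul, transpose_transpose, transpose_one] at this
  exact this

/-- Correcting the determinant of an isometry inside the stabiliser of a subspace. -/
theorem exists_su_map {W W' : Submodule F (Fin n → F)} (e : (Fin n → F) ≃ₗ[F] (Fin n → F))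
    (he : (uPQ hF n).IsIso e) (hW : W'.map e.toLinearMap = W)
    (h : ∀ ν : F, conj hF ν * ν = 1 → ∃ d : (Fin n → F) →ₗ[F] (Fin n → F), (uPQ hF n).IsIso d ∧
      LinearMap.det d = ν ∧ ∀ w ∈ W, d w ∈ W) :
    ∃ x : SU n F q, W'.map (toLin' (suMat n F q x)) = W := by
  obtain ⟨y, hy⟩ := exists_gu_of_equiv hF n e he
  have h1 : LinearMap.det e.toLinearMap = (guMat n F q y).det := by
    rw [← LinearMap.det_toLin']
    exact congrArg _ (LinearMap.ext fun v => (hy v).symm)
  have h2 : (guMat n F q y).det ^ (q + 1) = 1 := det_norm_of_pres hF ((mem_GU_iff' y.1).1 y.2)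
  have h3 : (guMat n F q y).det ≠ 0 := fun h0 => by simp [h0] at h2
  obtain ⟨d, hd, hd', hdW⟩ := h (guMat n F q y).det⁻¹ (by
    rw [conj_apply, ← pow_succ, inv_pow, h2, inv_one])
  let d' := hd.toEquiv (uPQ_nondeg hF n)
  have hd'' : d'.toLinearMap = d := LinearMap.ext fun _ => rfl
  obtain ⟨x, hx⟩ := exists_su_of_equiv hF n (e.trans d') (hd.comp he) (by
    rw [LinearEquiv.coe_trans, LinearMap.det_comp, hd'', hd', h1, inv_mul_cancel₀ h3])
  refine ⟨x, ?_⟩
  rw [show toLin' (suMat n F q x) = d'.toLinearMap ∘ₗ e.toLinearMap from LinearMap.ext hx,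
    Submodule.map_comp, hW]
  exact Submodule.eq_of_le_of_finrank_eq (Submodule.map_le_iff_le_comap.2 hdW)
    (LinearEquiv.finrank_map_eq d' W)

theorem conj_of_ni {u : Fin n → F} (hu : (uPQ hF n).B u u = 1) (g : SU n F q)
    (h : NI (uPQ hF n) (toLin' (suMat n F q g))) :
    ∃ x, x * g * x⁻¹ ∈ stab (suMat n F q) (Submodule.span F {u}) := by
  obtain ⟨v, a, hv, ha⟩ := h
  have hH := uPQ_isHerm hF n
  obtain ⟨t, ht⟩ := hH.exists_smul_norm_eq hv (map_one _)
  obtain ⟨e, he, he'⟩ := (uPQ hF n).witt_family (uPQ_nondeg hF n) (fun _ : Unit => t • v)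
    (fun _ => u) (linearIndependent_unique_iff.2 fun h0 => by simp [h0] at ht)
    (linearIndependent_unique_iff.2 fun h0 => by simp [h0] at hu) (fun _ _ => hu.trans ht.symm)
    (fun _ => (hH.N_sub_iff _ _).2 (hu.trans ht.symm))
  obtain ⟨x, hx⟩ := exists_su_map hF (W' := Submodule.span F {t • v}) (W := Submodule.span F {u}) e he
    (by rw [Submodule.map_span, Set.image_singleton]; exact congrArg (Submodule.span F {·}) (he' ()))
    fun ν hν => ⟨_, hH.qrefl_isIso u (ν - 1) (by rw [hu, map_sub, map_one]; linear_combination hν),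
      by rw [PQ.det_qrefl, hu]; ring, fun w hw => by
        rw [PQ.qrefl_apply]
        exact add_mem hw (Submodule.smul_mem _ _ (Submodule.mem_span_singleton_self u))⟩
  refine ⟨x, conj_mem_stab _ (fun w hw => ?_) hx⟩
  obtain ⟨s, rfl⟩ := Submodule.mem_span_singleton.1 hw
  refine Submodule.mem_span_singleton.2 ⟨s * a, ?_⟩
  simp only [mulVec_smul, show suMat n F q g *ᵥ v = a • v from ha, smul_smul]
  congr 1; ring

theorem conj_of_tp {W : Submodule F (Fin n → F)} (hW : (uPQ hF n).TS W) (hW2 : finrank F W = 2)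
    (g : SU n F q) (h : TP (uPQ hF n) (toLin' (suMat n F q g))) :
    ∃ x, x * g * x⁻¹ ∈ stab (suMat n F q) W := by
  obtain ⟨W', h1, h2, h3⟩ := h
  obtain ⟨e, he, he'⟩ := h1.exists_map_eq (uPQ_nondeg hF n) hW (h2.trans hW2.symm)
  obtain ⟨u, hu, hu0⟩ := Submodule.exists_mem_ne_zero_of_ne_bot
    (Submodule.finrank_eq_zero.not.1 (hW2 ▸ two_ne_zero) : W ≠ ⊥)
  obtain ⟨y, hy, hyu, -⟩ := (uPQ hF n).exists_partner (uPQ_nondeg hF n) ⊥ (hW.1 u hu) hu0
    (by simp)
  obtain ⟨x, hx⟩ := exists_su_map hF e he he' fun ν hν => by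
    obtain ⟨s, hs, hs'⟩ : ∃ s : F, s ≠ 0 ∧ s * (conj hF s)⁻¹ = ν := by
      by_cases h4 : ν = -1
      · obtain ⟨c, hc, hc'⟩ := exists_trace_zero hF
        refine ⟨c, hc, ?_⟩
        rw [conj_apply, show c ^ q = -c by linear_combination hc', h4]
        field_simp
      · have h5 : 1 + ν ≠ 0 := fun h => h4 (by linear_combination h)
        refine ⟨1 + ν, h5, (mul_inv_eq_iff_eq_mul₀ ((_root_.map_ne_zero _).2 h5)).2 ?_⟩
        rw [map_add, map_one]
        linear_combination -hν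
    exact ⟨_, (uPQ hF n).dil_isIso (hW.1 u hu) hy hyu hs, by rw [PQ.det_dil _ hy hyu, hs'],
      fun w hw => by
        rw [PQ.dil_apply, hW.B_eq hu hw, mul_zero, zero_smul, add_zero]
        exact add_mem hw (W.smul_mem _ hu)⟩
  exact ⟨x, conj_mem_stab _ h3 hx⟩

theorem exists_su_transvection {x : Fin n → F} (hx : (uPQ hF n).B x x = 0) :
    ∃ (d : F) (g : SU n F q), d ≠ 0 ∧
      ∀ v, suMat n F q g *ᵥ v = v + (d * (uPQ hF n).B x v) • x := by
  obtain ⟨d, hd, hd'⟩ := (uPQ_isHerm hF n).exists_trace_zero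
  obtain ⟨e, h1, h2, h3⟩ := (uPQ_isHerm hF n).exists_transvection (uPQ_nondeg hF n) hx hd'
  obtain ⟨g, hg⟩ := exists_su_of_equiv hF n e h1 h2
  exact ⟨d, g, hd, fun v => (hg v).trans (h3 v)⟩

theorem stab_su_ne_top {W : Submodule F (Fin n → F)} {x w : Fin n → F} (hx : (uPQ hF n).B x x = 0)
    (hxW : x ∉ W) (hw : w ∈ W) (hxw : (uPQ hF n).B x w ≠ 0) : stab (suMat n F q) W ≠ ⊤ := fun e => by
  obtain ⟨d, g, hd, hg⟩ := exists_su_transvection hF hx
  have h : g ∈ stab (suMat n F q) W := e ▸ Subgroup.mem_top g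
  have h1 := h w hw
  rw [hg, W.add_mem_iff_right hw, W.smul_mem_iff (mul_ne_zero hd hxw)] at h1
  exact hxW h1

theorem uPQ_single (i j : Fin n) :
    (uPQ hF n).B (Pi.single i 1) (Pi.single j 1) = if i = j then 1 else 0 := by
  rw [uPQ_B, herm_single_right hF, Pi.single_apply]
  simp

include hF in
theorem stab_line_ne_top {i j : Fin n} (hij : i ≠ j) :
    stab (suMat n F q) (Submodule.span F {Pi.single i 1}) ≠ ⊤ := by
  have hH := uPQ_isHerm hF n
  have h1 := uPQ_single hF i i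
  rw [if_pos rfl] at h1
  obtain ⟨e, f, -, -, he, hf, hef, h⟩ := hH.exists_hyperbolic_pair h1
    ((uPQ_single hF j j).trans (if_pos rfl)) ((uPQ_single hF i j).trans (if_neg hij))
  obtain ⟨α, β, h2⟩ := h (Pi.single i 1) (Submodule.subset_span (by simp))
  refine stab_su_ne_top hF he (fun h3 => ?_) (Submodule.mem_span_singleton_self _) fun h3 => ?_
  · obtain ⟨a, rfl⟩ := Submodule.mem_span_singleton.1 h3
    rw [PQ.B_smul_left, PQ.B_smul_right, h1, mul_one, mul_eq_zero, map_eq_zero, or_self] at he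
    simp [he] at hef
  · rw [h2, PQ.B_add_right, PQ.B_smul_right, PQ.B_smul_right, he, hef] at h3
    rw [h2, show β = 0 by simpa using h3] at h1
    simp [he] at h1

include hF in
theorem cov_psu4 : Cov (PSU 4 F q) := by
  have hH := uPQ_isHerm hF 4
  have h1 : ∀ i : Fin 4, (uPQ hF 4).B (Pi.single i 1) (Pi.single i 1) = 1 := fun i =>
    (uPQ_single hF i i).trans (if_pos rfl)
  obtain ⟨e, f, he, hf, hee, hff, hef, -⟩ := hH.exists_hyperbolic_pair (h1 0) (h1 1)
    ((uPQ_single hF 0 1).trans (if_neg (by decide)))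
  obtain ⟨e', f', he', hf', hee', -, hef', -⟩ := hH.exists_hyperbolic_pair (h1 2) (h1 3)
    ((uPQ_single hF 2 3).trans (if_neg (by decide)))
  have h2 : ∀ x ∈ Submodule.span F ({Pi.single 0 1, Pi.single 1 1} : Set (Fin 4 → F)),
      ∀ y ∈ Submodule.span F ({Pi.single 2 1, Pi.single 3 1} : Set (Fin 4 → F)),
      (uPQ hF 4).B x y = 0 := fun x hx y hy => by
    obtain ⟨a, b, rfl⟩ := Submodule.mem_span_pair.1 hx
    obtain ⟨c, d, rfl⟩ := Submodule.mem_span_pair.1 hy
    simp only [PQ.B_add_left, PQ.B_add_right, PQ.B_smul_left, PQ.B_smul_right, uPQ_single]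
    simp
  have hW := ts_pair hH hee (h2 e he e' he') hee'
  have hW2 : finrank F (Submodule.span F ({e, e'} : Set (Fin 4 → F))) = 2 :=
    finrank_pair (by rintro rfl; simp at hef) fun h => by
      obtain ⟨a, rfl⟩ := Submodule.mem_span_singleton.1 h
      simp [h2 e he f' hf'] at hef'
  have hc : ∀ g ∈ Subgroup.center (SU 4 F q), ∃ a : F, suMat 4 F q g = a • 1 :=
    fun g hg => (mem_center_SU_iff hF (by omega)).1 hg
  have h3 : (uPQ hF 4).B f e ≠ 0 := by rw [Ne, PQ.B_eq_zero_comm, hef]; exact one_ne_zero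
  refine cov_quot _ _ _ (fun g hg => (hc g hg).elim fun a => mem_stab_of_scalar _)
    (fun g hg => (hc g hg).elim fun a => mem_stab_of_scalar _)
    (stab_line_ne_top hF (i := 0) (j := 1) (by decide))
    (stab_su_ne_top hF hff (fun h => h3 (hW.B_eq h (Submodule.subset_span (by simp))))
      (Submodule.subset_span (by simp)) h3) fun g => ?_
  rcases su4_cases hF (su_unitary hF g) rfl with h | h
  · exact (conj_of_ni hF (h1 0) g h).imp fun _ => Or.inl
  · exact (conj_of_tp hF hW hW2 g h).imp fun _ => Or.inr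

end CfsgLib.Cov2
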